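import Cfsg.Agent.Classical.SL2Deg
import Cfsg.Agent.Classical.SL2Torus
import Cfsg.Agent.Classical.MaxL2c
import Cfsg.Agent.Char.McKay1
import Cfsg.Agent.Char.KGV
import Cfsg.Agent.Clifford.Small

/-! Counting characters of `ℓ'`-degree; the McKay equality for `SL₂(q)`. -/

set_option autoImplicit false

open MulAction Subgroup Matrix Cfsg CF.Char CF.Clifford
open scoped MatrixGroups Classical commutatorElement

namespace CF.Classical

/-- The number of irreducible characters of degree not divisible by `ℓ`. -/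
noncomputable def cntP (ℓ : ℕ) (G : Type*) [Group G] : ℕ :=
  Nat.card {χ : IrrCharacter G // ¬ ℓ ∣ charDegree (χ : G → ℂ)}

section
variable {G H : Type*} [Group G] [Group H] [Finite G] {ℓ : ℕ}

theorem cntP_of_surj (f : G →* H) (hf : Function.Surjective f)
    (hk : ∀ χ, IsIrrCharacter G χ → ¬ ℓ ∣ charDegree χ → f.ker ≤ charKer χ) :
    cntP ℓ G = cntP ℓ H := by
  have h : ∀ ψ : H → ℂ, charDegree (fun g => ψ (f g)) = charDegree ψ := fun ψ => by
    simp [charDegree]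
  refine (Nat.card_congr (Equiv.ofBijective
    (fun ψ : {ψ : IrrCharacter H // ¬ ℓ ∣ charDegree (ψ : H → ℂ)} =>
      (⟨⟨fun g => ψ.1.1 (f g), irr_comp_of_surjective ψ.1.2 f hf⟩, by
        simpa [h] using ψ.2⟩ : {χ : IrrCharacter G // ¬ ℓ ∣ charDegree (χ : G → ℂ)}))
    ⟨fun ψ ψ' e => ?_, fun χ => ?_⟩)).symm
  · refine Subtype.ext (Subtype.ext (funext fun y => ?_))
    obtain ⟨x, rfl⟩ := hf y
    exact congrFun (congrArg (fun χ => χ.1.1) e) x
  · obtain ⟨ψ, h1, h2⟩ := exists_irr_of_ker_le χ.1.2 f hf (hk _ χ.1.2 χ.2)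
    exact ⟨⟨⟨ψ, h1⟩, by have := χ.2; rwa [h2, h] at this⟩, Subtype.ext (Subtype.ext h2.symm)⟩

theorem cntP_congr (e : G ≃* H) : cntP ℓ G = cntP ℓ H :=
  cntP_of_surj e.toMonoidHom e.surjective fun _ _ _ => by
    rw [(MonoidHom.ker_eq_bot_iff _).2 e.injective]; exact bot_le

theorem cntP_two_of_surj (f : G →* H) (hf : Function.Surjective f)
    (hk : ∀ z ∈ f.ker, z ∈ center G ∧ z * z = 1 ∧ z ∈ commutator G) : cntP 2 G = cntP 2 H := by
  refine cntP_of_surj f hf fun χ hχ hd z hz => ?_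
  obtain ⟨h1, h2, h3⟩ := hk z hz
  have h0 := irr_one_ne_zero hχ
  have h4 := detChar_of_center hχ h1
  have h5 : detHom (irr_isCharacter hχ) z = 1 := Abelianization.commutator_subset_ker _ h3
  rw [← coe_detHom (irr_isCharacter hχ), h5, Units.val_one] at h4
  have h6 := char_mul_of_mem_charCenter h0 (center_le_charCenter hχ h1) z
  rw [h2] at h6
  have h7 : (χ z / χ 1) ^ 2 = 1 := by field_simp at h6 ⊢; exact h6.symm
  obtain ⟨m, hm⟩ := Nat.odd_iff.2 (Nat.two_dvd_ne_zero.1 hd)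
  rw [hm, pow_succ, pow_mul, h7, one_pow, one_mul, eq_div_iff h0, one_mul] at h4
  exact (mem_charKer_iff (irr_isCharacter hχ)).2 h4.symm

theorem charDegree_dvd_index (A : Subgroup G) [A.Normal] (hA : ∀ a ∈ A, ∀ b ∈ A, a * b = b * a)
    (χ : IrrCharacter G) : charDegree (χ : G → ℂ) ∣ A.index := by
  obtain ⟨n, -, hn⟩ := irr_one_eq_nat χ.2
  rw [charDegree_eq_of_eq hn]
  exact irr_one_dvd_index_of_normal_comm A hA χ.2 hn

theorem cntP_of_normal_comm (A : Subgroup G) [A.Normal] (hA : ∀ a ∈ A, ∀ b ∈ A, a * b = b * a)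
    (h : ¬ ℓ ∣ A.index) : cntP ℓ G = Nat.card (ConjClasses G) := by
  rw [← card_irr]
  exact Nat.card_congr (Equiv.subtypeUnivEquiv fun χ e => h (e.trans (charDegree_dvd_index A hA χ)))

theorem cntP_two_of_inverts {T : Subgroup G} (hi : T.index = 2)
    (hc : ∀ s ∈ T, ∀ t ∈ T, s * t = t * s) (hv : ∀ x ∉ T, ∀ t ∈ T, x * t * x⁻¹ = t⁻¹)
    (h2 : Nat.card {t : T // t ^ 2 = 1} = 2) : cntP 2 G = 4 := by
  have := normal_of_index_eq_two hi
  have h1 := card_conjClasses_of_inverts hi hc hv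
  have h3 := sum_irr_one_sq (G := G)
  have h4 : ∀ χ : IrrCharacter G, (χ : G → ℂ) 1 ^ 2 =
      4 - 3 * if ¬ 2 ∣ charDegree (χ : G → ℂ) then 1 else 0 := by
    intro χ
    have h5 := charDegree_dvd_index T hc χ
    obtain ⟨n, -, hn⟩ := irr_one_eq_nat χ.2
    rw [charDegree_eq_of_eq hn] at h5 ⊢
    rw [hn]
    rcases (Nat.dvd_prime Nat.prime_two).1 (hi ▸ h5) with rfl | rfl <;> norm_num
  rw [Finset.sum_congr rfl fun χ _ => h4 χ, Finset.sum_sub_distrib, ← Finset.mul_sum,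
    Finset.sum_boole, ← Fintype.card_subtype, ← Nat.card_eq_fintype_card, Finset.sum_const,
    Finset.card_univ, ← Nat.card_eq_fintype_card, card_irr, ← T.index_mul_card, hi, nsmul_eq_mul,
    sub_eq_iff_eq_add] at h3
  have h6 : Nat.card (ConjClasses G) * 4 = 2 * Nat.card T + 3 * cntP 2 G := by exact_mod_cast h3
  omega

theorem cntP_two_A4 : cntP 2 (alternatingGroup (Fin 4)) = 4 := by
  have := alternatingGroup.normal_kleinFour (α := Fin 4) (by simp)
  have h1 := alternatingGroup.kleinFour_isKleinFour (α := Fin 4) (by simp)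
  have h2 := (alternatingGroup.kleinFour (Fin 4)).index_mul_card
  rw [h1.card_four, card_A4] at h2
  have := IsKleinFour.isMulCommutative (G := alternatingGroup.kleinFour (Fin 4))
  rw [cntP_of_normal_comm (alternatingGroup.kleinFour (Fin 4)) (fun a ha b hb =>
    congrArg Subtype.val (mul_comm' (⟨a, ha⟩ : alternatingGroup.kleinFour (Fin 4)) ⟨b, hb⟩))
    (by omega)]
  have h3 := card_comm_eq_card_conjClasses_mul_card (alternatingGroup (Fin 4))
  have h4 : Fintype.card {p : alternatingGroup (Fin 4) × alternatingGroup (Fin 4) //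
      p.1 * p.2 = p.2 * p.1} = 48 := by decide +kernel
  rw [card_A4, show Nat.card {p : alternatingGroup (Fin 4) × alternatingGroup (Fin 4) //
    Commute p.1 p.2} = 48 from Nat.card_eq_fintype_card.trans (by convert h4; rfl)] at h3
  omega

theorem card_subtype_or {X : Type*} [Finite X] {p q r : X → Prop} (h : ∀ x, p x ↔ q x ∨ r x)
    (h' : ∀ x, q x → r x → False) :
    Nat.card {x // p x} = Nat.card {x // q x} + Nat.card {x // r x} := by
  rw [← Nat.card_sum]
  exact Nat.card_congr ((Equiv.subtypeEquivRight h).trans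
    (subtypeOrEquiv q r (Pi.disjoint_iff.2 fun x => Prop.disjoint_iff.2 fun e => h' x e.1 e.2)))

end

variable {F : Type*} [Field F] [Finite F]

theorem deg_SL2_cases (χ : IrrCharacter SL(2, F)) : ∃ n : ℕ, (χ : SL(2, F) → ℂ) 1 = n ∧
    charDegree (χ : SL(2, F) → ℂ) = n ∧ (n = 1 ∨ n = Nat.card F ∨ n = Nat.card F + 1 ∨
      n + 1 = Nat.card F ∨ 2 * n = Nat.card F + 1 ∨ 2 * n + 1 = Nat.card F) := by
  obtain ⟨g₀, h₀⟩ := exists_noEig F
  obtain ⟨n, h1, h2⟩ := h₀.irr_SL2_deg χ.2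
  exact ⟨n, h1, charDegree_eq_of_eq h1, by tauto⟩

theorem cntP_SL2_eq_sub (h2 : (2 : F) ≠ 0) (ℓ : ℕ) : cntP ℓ SL(2, F) = Nat.card F + 4 -
    Nat.card {χ : IrrCharacter SL(2, F) // ℓ ∣ charDegree (χ : SL(2, F) → ℂ)} := by
  rw [cntP, card_subtype_not, card_irr, card_conjClasses_SL2, card_units_sq_of_odd h2]
  rfl

theorem cntP_SL2_char (h2 : (2 : F) ≠ 0) {ℓ : ℕ} (hℓ : ℓ.Prime) (h : ℓ ∣ Nat.card F) :
    cntP ℓ SL(2, F) = Nat.card F + 3 := by
  rw [cntP_SL2_eq_sub h2, Nat.card_congr (Equiv.subtypeEquivRight (q := fun χ : IrrCharacter SL(2, F) =>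
    (χ : SL(2, F) → ℂ) 1 = Nat.card F) fun χ => ?_), card_irr_deg_card]
  · rfl
  obtain ⟨n, h1, h3, h4⟩ := deg_SL2_cases χ
  rw [h1, h3, Nat.cast_inj]
  refine ⟨fun e => ?_, fun e => e ▸ h⟩
  have h5 : ∀ a b, a * n + 1 = b * Nat.card F ∨ a * n = b * Nat.card F + 1 → False := by
    rintro a b (h5 | h5)
    · exact hℓ.one_lt.ne' (Nat.dvd_one.1 ((Nat.dvd_add_right (e.mul_left a)).1 (h5 ▸ h.mul_left b)))
    · exact hℓ.one_lt.ne' (Nat.dvd_one.1 ((Nat.dvd_add_right (h.mul_left b)).1 (h5 ▸ e.mul_left a)))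
  by_contra h6
  rcases h4 with h4 | h4 | h4 | h4 | h4 | h4
  exacts [h5 1 0 (by omega), h6 h4, h5 1 1 (by omega), h5 1 1 (by omega), h5 2 1 (by omega),
    h5 2 1 (by omega)]

theorem cntP_SL2_sub (h2 : (2 : F) ≠ 0) {ℓ : ℕ} (hℓ : ℓ.Prime) (ho : ℓ ≠ 2)
    (h : ℓ ∣ Nat.card F - 1) : cntP ℓ SL(2, F) = (Nat.card F - 1 + 6) / 2 := by
  obtain ⟨m, hm⟩ := odd_card_of_two_ne_zero h2
  have h3 : ℓ ∣ m := (Nat.Coprime.dvd_mul_left ((Nat.coprime_primes hℓ Nat.prime_two).2 ho)).1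
    (by rwa [hm, Nat.add_sub_cancel] at h)
  have q1 := Finite.one_lt_card (α := F)
  have h4 : 4 ≤ Nat.card F := by
    have := Nat.le_of_dvd (by omega) h3
    have := hℓ.two_le
    omega
  rw [cntP_SL2_eq_sub h2, card_subtype_or (X := IrrCharacter SL(2, F))
    (q := fun χ => (χ : SL(2, F) → ℂ) 1 = Nat.card F - 1)
    (r := fun χ => 2 * (χ : SL(2, F) → ℂ) 1 = Nat.card F - 1), card_irr_deg_sub_one h4,
    card_irr_deg_half_sub h4 h2, card_units_sq_of_odd h2]
  · omega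
  · intro χ
    obtain ⟨n, h1, h3', h4⟩ := deg_SL2_cases χ
    rw [h1, h3', eq_sub_iff_add_eq, eq_sub_iff_add_eq]
    norm_cast
    refine ⟨fun e => ?_, ?_⟩
    · have h5 : ∀ a, n = a * m + 1 ∨ n = a * m + 2 → False := by
        rintro a (h5 | h5)
        · exact hℓ.one_lt.ne' (Nat.dvd_one.1 ((Nat.dvd_add_right (h3.mul_left a)).1 (h5 ▸ e)))
        · exact ho ((Nat.prime_dvd_prime_iff_eq hℓ Nat.prime_two).1
            ((Nat.dvd_add_right (h3.mul_left a)).1 (h5 ▸ e)))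
      by_contra h6
      rcases h4 with h4 | h4 | h4 | h4 | h4 | h4
      exacts [h5 0 (by omega), h5 2 (by omega), h5 2 (by omega), h6 (Or.inl h4),
        h5 1 (by omega), h6 (Or.inr h4)]
    · rintro (e | e)
      · exact (show n = 2 * m by omega) ▸ h3.mul_left 2
      · exact (show n = m by omega) ▸ h3
  · intro χ e e'
    exact irr_one_ne_zero χ.2 (by linear_combination e' - e)

theorem cntP_SL2_add (h2 : (2 : F) ≠ 0) {ℓ : ℕ} (hℓ : ℓ.Prime) (ho : ℓ ≠ 2)
    (h : ℓ ∣ Nat.card F + 1) : cntP ℓ SL(2, F) = (Nat.card F + 1 + 6) / 2 := by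
  obtain ⟨m, hm⟩ : ∃ m, Nat.card F + 1 = 2 * m := by
    obtain ⟨m, hm⟩ := odd_card_of_two_ne_zero h2
    exact ⟨m + 1, by omega⟩
  have h3 : ℓ ∣ m := (Nat.Coprime.dvd_mul_left ((Nat.coprime_primes hℓ Nat.prime_two).2 ho)).1
    (hm ▸ h)
  have h4 : 4 ≤ Nat.card F := by
    have := Nat.le_of_dvd (by omega) h3
    have := hℓ.two_le
    omega
  rw [cntP_SL2_eq_sub h2, card_subtype_or (X := IrrCharacter SL(2, F))
    (q := fun χ => (χ : SL(2, F) → ℂ) 1 = Nat.card F + 1)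
    (r := fun χ => 2 * (χ : SL(2, F) → ℂ) 1 = Nat.card F + 1), card_irr_deg_add_one,
    card_irr_deg_half_add h4 h2, card_units_sq_of_odd h2]
  · omega
  · intro χ
    obtain ⟨n, h1, h3', h4⟩ := deg_SL2_cases χ
    rw [h1, h3']
    norm_cast
    refine ⟨fun e => ?_, ?_⟩
    · have h5 : ∀ a, n + 1 = a * m ∨ n + 2 = a * m → False := by
        rintro a (h5 | h5)
        · exact hℓ.one_lt.ne' (Nat.dvd_one.1 ((Nat.dvd_add_right e).1 (h5 ▸ h3.mul_left a)))
        · exact ho ((Nat.prime_dvd_prime_iff_eq hℓ Nat.prime_two).1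
            ((Nat.dvd_add_right e).1 (h5 ▸ h3.mul_left a)))
      by_contra h6
      rcases h4 with h4 | h4 | h4 | h4 | h4 | h4
      exacts [hℓ.one_lt.ne' (Nat.dvd_one.1 (h4 ▸ e)), h5 2 (by omega), h6 (Or.inl h4),
        h5 2 (by omega), h6 (Or.inr h4), h5 1 (by omega)]
    · rintro (e | e)
      · exact (show n = 2 * m by omega) ▸ h3.mul_left 2
      · exact (show n = m by omega) ▸ h3
  · intro χ e e'
    exact irr_one_ne_zero χ.2 (by linear_combination e' - e)

theorem cntP_SL2_two (h2 : (2 : F) ≠ 0) (h4 : 4 ≤ Nat.card F) : cntP 2 SL(2, F) = 4 := by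
  obtain ⟨m, hm⟩ := odd_card_of_two_ne_zero h2
  have key : ∀ (d : ℕ) (c : ℂ), 2 * d = c → d ≠ 1 → d ≠ Nat.card F →
      (∀ n, (n = 1 ∨ n = Nat.card F ∨ n = Nat.card F + 1 ∨ n + 1 = Nat.card F ∨
        2 * n = Nat.card F + 1 ∨ 2 * n + 1 = Nat.card F) →
        (¬ 2 ∣ n ↔ (n = 1 ∨ n = Nat.card F) ∨ n = d)) →
      Nat.card {χ : IrrCharacter SL(2, F) // 2 * (χ : SL(2, F) → ℂ) 1 = c} = 2 →
      cntP 2 SL(2, F) = 4 := by
    rintro d _ rfl d1 d2 h h5
    rw [cntP, card_subtype_or (X := IrrCharacter SL(2, F))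
    (q := fun χ => (χ : SL(2, F) → ℂ) 1 = 1 ∨
      (χ : SL(2, F) → ℂ) 1 = Nat.card F) (r := fun χ => 2 * (χ : SL(2, F) → ℂ) 1 = 2 * d), h5,
      card_subtype_or (fun _ => Iff.rfl), card_irr_deg_one h4, card_irr_deg_card]
    · intro χ e e'
      rw [e] at e'
      norm_cast at e'
      omega
    · intro χ
      obtain ⟨n, h1, h3', h4⟩ := deg_SL2_cases χ
      rw [h1, h3', h n h4, mul_right_inj' two_ne_zero]
      norm_cast
    · intro χ e e'
      rw [mul_right_inj' two_ne_zero] at e'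
      rw [e'] at e
      norm_cast at e
      omega
  rcases Nat.even_or_odd m with ⟨r, hr⟩ | ⟨r, hr⟩
  · exact key (m + 1) _ (by rw [hm]; push_cast; ring) (by omega) (by omega) (fun n h => by omega)
      (card_irr_deg_half_add h4 h2)
  · exact key m _ (by rw [hm]; push_cast; ring) (by omega) (by omega) (fun n h => by omega)
      (card_irr_deg_half_sub h4 h2)

theorem card_lin_eq (α β : F) : Nat.card {z : F × F // z.2 * α = z.1 * β} =
    if α = 0 ∧ β = 0 then Nat.card F ^ 2 else Nat.card F := by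
  split_ifs with h
  · rw [Nat.card_congr (Equiv.subtypeUnivEquiv (by simp [h.1, h.2])), Nat.card_prod, sq]
  refine (Nat.card_congr (Equiv.ofBijective (fun t : F =>
    (⟨(t * α, t * β), by ring⟩ : {z : F × F // z.2 * α = z.1 * β})) ⟨fun s t e => ?_, ?_⟩)).symm
  · simp only [Subtype.mk.injEq, Prod.mk.injEq, mul_eq_mul_right_iff] at e
    tauto
  · rintro ⟨⟨x, y⟩, e⟩
    by_cases h1 : α = 0
    · have h2 : β ≠ 0 := fun h2 => h ⟨h1, h2⟩
      refine ⟨y / β, Subtype.ext (Prod.ext ?_ (div_mul_cancel₀ y h2))⟩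
      simpa [h1, h2, eq_comm] using e
    · refine ⟨x / α, Subtype.ext (Prod.ext (div_mul_cancel₀ x h1) ?_)⟩
      simp only at e ⊢
      field_simp
      linear_combination -e

variable (F) in
/-- The Borel subgroup of `SL₂`. -/
def slBorel : Subgroup SL(2, F) where
  carrier := {s | ∃ a x, s = sbor a x}
  one_mem' := ⟨1, 0, sbor_one_zero.symm⟩
  mul_mem' := by rintro _ _ ⟨a, x, rfl⟩ ⟨b, y, rfl⟩; exact ⟨_, _, sbor_mul _ _ _ _⟩
  inv_mem' := by
    rintro _ ⟨a, x, rfl⟩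
    exact ⟨a⁻¹, -x, inv_eq_of_mul_eq_one_right (by rw [sbor_mul]; simp [mul_comm x, sbor_one_zero])⟩

variable (F) in
/-- Parametrisation of the Borel subgroup. -/
noncomputable def slBorelEquiv : Fˣ × F ≃ slBorel F :=
  Equiv.ofBijective (fun z => ⟨sbor z.1 z.2, _, _, rfl⟩)
    ⟨fun _ _ e => Prod.ext (sbor_eq_iff.1 (congrArg Subtype.val e)).1
      (sbor_eq_iff.1 (congrArg Subtype.val e)).2, by rintro ⟨_, a, x, rfl⟩; exact ⟨(a, x), rfl⟩⟩

theorem card_slBorel : Nat.card (slBorel F) = (Nat.card F - 1) * Nat.card F := by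
  rw [← Nat.card_congr (slBorelEquiv F), Nat.card_prod, Nat.card_units]

theorem card_conjClasses_slBorel (h2 : (2 : F) ≠ 0) :
    Nat.card (ConjClasses (slBorel F)) = Nat.card F + 3 := by
  have := Fintype.ofFinite F
  have h1 := card_comm_eq_card_conjClasses_mul_card (slBorel F)
  let e := (Equiv.prodProdProdComm Fˣ Fˣ F F).trans ((slBorelEquiv F).prodCongr (slBorelEquiv F))
  rw [← Nat.card_congr (e.subtypeEquiv (p := fun z : (Fˣ × Fˣ) × F × F =>
    z.2.2 * ((z.1.1 : F) - (z.1.1⁻¹ : Fˣ)) = z.2.1 * ((z.1.2 : F) - (z.1.2⁻¹ : Fˣ))) ?_),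
    card_subtype_prod (fun (a : Fˣ × Fˣ) (z : F × F) =>
      z.2 * ((a.1 : F) - (a.1⁻¹ : Fˣ)) = z.1 * ((a.2 : F) - (a.2⁻¹ : Fˣ))), card_slBorel] at h1
  · simp only [card_lin_eq, sub_eq_zero, Units.val_inj, units_eq_inv_iff] at h1
    have h3 : (Finset.univ.filter fun a : Fˣ × Fˣ => a.1 ^ 2 = 1 ∧ a.2 ^ 2 = 1).card = 4 := by
      rw [← Finset.univ_product_univ,
        Finset.filter_product (fun a : Fˣ => a ^ 2 = 1) (fun a : Fˣ => a ^ 2 = 1),
        Finset.card_product, ← Fintype.card_subtype, ← Nat.card_eq_fintype_card,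
        card_units_sq_of_odd h2]
    have h4 := Finset.card_filter_add_card_filter_not (s := Finset.univ)
      (fun a : Fˣ × Fˣ => a.1 ^ 2 = 1 ∧ a.2 ^ 2 = 1)
    rw [Finset.sum_ite, Finset.sum_const, Finset.sum_const, h3, smul_eq_mul, smul_eq_mul] at h1
    rw [h3, Finset.card_univ, ← Nat.card_eq_fintype_card, Nat.card_prod, Nat.card_units] at h4
    obtain ⟨n, hn⟩ : ∃ n, Nat.card F = n + 1 := ⟨_, (Nat.succ_pred_eq_of_pos Nat.card_pos).symm⟩
    have q1 := Finite.one_lt_card (α := F)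
    rw [hn, Nat.add_sub_cancel] at h1 h4
    rw [hn]
    refine Nat.eq_of_mul_eq_mul_right (m := n * (n + 1)) (Nat.mul_pos (by omega) (by omega)) ?_
    rw [← h1]
    linear_combination (n + 1) * h4
  · rintro ⟨⟨a, b⟩, x, y⟩
    change _ ↔ (⟨sbor a x, _⟩ : slBorel F) * ⟨sbor b y, _⟩ = ⟨sbor b y, _⟩ * ⟨sbor a x, _⟩
    rw [Subtype.ext_iff, coe_mul, coe_mul]
    simp only [sbor_mul, sbor_eq_iff, mul_comm a b, true_and]
    exact ⟨fun h => by linear_combination h, fun h => by linear_combination h⟩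

theorem cntP_normalizer_char (h2 : (2 : F) ≠ 0) (p : ℕ) [hp : Fact p.Prime] [CharP F p]
    (S : Sylow p SL(2, F)) :
    cntP p (normalizer ((S : Subgroup SL(2, F)) : Set SL(2, F))) = Nat.card F + 3 := by
  have L := isL2_PSL F (AlgebraicClosure F)
  have := Fintype.ofFinite F
  obtain ⟨n, -, hn⟩ := FiniteField.card F p
  rw [← Nat.card_eq_fintype_card] at hn
  let f : Multiplicative F →* SL(2, F) := MonoidHom.mk' (fun x => sbor 1 x.toAdd) fun x y => by
    rw [sbor_mul]; simp [add_comm]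
  have hU : Nat.card f.range = Nat.card F :=
    (Nat.card_congr (MonoidHom.ofInjective (f := f) fun x y e =>
      (sbor_eq_iff (F := F).1 e).2).toEquiv).symm
  have q1 := Finite.one_lt_card (α := F)
  have hi : f.range.index = Nat.card F ^ 2 - 1 := by
    have := f.range.card_mul_index
    rw [hU, card_SL2] at this
    exact Nat.eq_of_mul_eq_mul_left (by omega) this
  have hp' : ¬ p ∣ f.range.index := fun e => by
    have h1 : p ∣ Nat.card F ^ 2 := (hn ▸ dvd_pow_self p n.ne_zero : p ∣ Nat.card F).pow two_ne_zero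
    have := Nat.dvd_sub h1 (hi ▸ e)
    rw [Nat.sub_sub_self (Nat.one_le_pow _ _ (by omega))] at this
    exact hp.out.one_lt.ne' (Nat.dvd_one.1 this)
  let U : Sylow p SL(2, F) := (IsPGroup.of_card (hU.trans hn)).toSylow hp'
  have hB : slBorel F ≤ normalizer (f.range : Set SL(2, F)) := by
    rintro _ ⟨a, x, rfl⟩
    refine mem_normalizer_fintype ?_
    rintro _ ⟨y, rfl⟩
    refine ⟨Multiplicative.ofAdd (a * y.toAdd * a), ?_⟩
    rw [eq_mul_inv_iff_mul_eq]
    simp [f, sbor_mul, add_comm]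
  have hN : normalizer (f.range : Set SL(2, F)) = slBorel F := by
    refine (eq_of_le_of_card_ge hB ?_).symm
    have h1 := (normalizer (f.range : Set SL(2, F))).card_mul_index
    have h3 := L.card_sylow_cover (isCentralCoprime_slToPSL p) slToPSL_surjective
    rw [U.card_eq_index_normalizer] at h3
    rw [show (normalizer (f.range : Set SL(2, F))).index = _ from h3, card_SL2,
      show Nat.card F ^ 2 - 1 = _ from Nat.sq_sub_sq _ 1] at h1
    rw [card_slBorel]
    refine (Nat.eq_of_mul_eq_mul_right (m := Nat.card F + 1) (by omega) ?_).le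
    rw [h1]; ring
  obtain ⟨g, rfl⟩ := exists_smul_eq SL(2, F) U S
  refine (cntP_congr (G := normalizer (f.range : Set SL(2, F))) (((MulAut.conj g).subgroupMap _).trans
    (MulEquiv.subgroupCongr (normalizer_map_conj f.range g).symm))).symm.trans ?_
  rw [cntP_of_normal_comm (f.range.subgroupOf _), hN, card_conjClasses_slBorel h2]
  · rintro ⟨_, _⟩ ⟨x, rfl⟩ ⟨_, _⟩ ⟨y, rfl⟩
    exact Subtype.ext (by simp only [MulMemClass.mk_mul_mk, ← map_mul, mul_comm x y])
  · exact fun e => hp' (e.trans (relIndex_dvd_index_of_le le_normalizer))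

theorem cntP_normalizer_ss (h2 : (2 : F) ≠ 0) (p : ℕ) [hp : Fact p.Prime] [CharP F p] {ℓ : ℕ}
    [hℓ : Fact ℓ.Prime] (h1 : ℓ ≠ 2) (h3 : ℓ ≠ p) (S : Sylow ℓ SL(2, F))
    (h0 : (S : Subgroup SL(2, F)) ≠ ⊥) : ∃ n, ℓ ∣ n ∧ (n = Nat.card F - 1 ∨ n = Nat.card F + 1) ∧
    cntP ℓ (normalizer ((S : Subgroup SL(2, F)) : Set SL(2, F))) = (n + 6) / 2 := by
  have := (nontrivial_iff_ne_bot _).2 h0
  have := S.isPGroup'.center_nontrivial
  obtain ⟨⟨⟨s, hs⟩, hc⟩, s1⟩ := exists_ne (1 : center S)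
  have s1 : s ≠ 1 := fun e => s1 (Subtype.ext (Subtype.ext e))
  obtain ⟨k, hk⟩ := (IsPGroup.iff_orderOf.1 S.isPGroup') ⟨s, hs⟩
  rw [← orderOf_coe] at hk
  have hd : ℓ ∣ orderOf s := hk ▸ dvd_pow_self ℓ (by
    rintro rfl; exact s1 (orderOf_eq_one_iff.1 hk))
  have hss : IsSS (SpecialLinearGroup.toGL s) := isSS_of_not_dvd p fun e => by
    rcases (Nat.Prime.dvd_mul hℓ.out).1 (hd.trans e) with e | e
    exacts [h1 ((Nat.prime_dvd_prime_iff_eq hℓ.out Nat.prime_two).1 e),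
      h3 ((Nat.prime_dvd_prime_iff_eq hℓ.out hp.out).1 e)]
  have hP : (S : Subgroup SL(2, F)) ≤ centralizer {s} := fun t ht =>
    mem_centralizer_singleton_iff.2 (congrArg Subtype.val (mem_center_iff.1 hc ⟨t, ht⟩))
  refine ⟨Nat.card (centralizer {s}), hd.trans (orderOf_dvd_natCard _ (hP hs)), ?_, ?_⟩
  · rw [← nsT1_toGL]
    rcases hss.cases with h | ⟨a, b, hab, h⟩
    exacts [Or.inr h.card_nsT1, Or.inl (h.card_nsT1_split hab)]
  · rw [hss.normalizer_eq hs hP, cntP_of_normal_comm ((centralizer {s}).subgroupOf _)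
      (fun a ha b hb => Subtype.ext (hss.comm ha hb)), hss.card_conjClasses_normalizer h2]
    rw [hss.index_subgroupOf]
    exact fun e => h1 ((Nat.prime_dvd_prime_iff_eq hℓ.out Nat.prime_two).1 e)

theorem exists_fourPair_sylow (h2 : (2 : F) ≠ 0) (S : Sylow 2 SL(2, F)) :
    ∃ (u v : OnePoint (AlgebraicClosure F)) (a b : PSL(2, F)), u ≠ v ∧
      (S : Subgroup SL(2, F)).map (slToPSL F) ≤ pairStab _ u v ∧
      a ∈ (S : Subgroup SL(2, F)).map (slToPSL F) ∧ b ∈ (S : Subgroup SL(2, F)).map (slToPSL F) ∧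
      a ∈ torus _ u v ∧ b ∉ torus _ u v ∧ IsFourPair a b := by
  have L := isL2_PSL F (AlgebraicClosure F)
  have := L.finite
  have := Fintype.ofFinite F
  obtain ⟨p, hp⟩ := CharP.exists F
  have : Fact p.Prime := ⟨CharP.char_is_prime F p⟩
  have h1 : ¬ IsCyclic ((S : Subgroup SL(2, F)).map (slToPSL F)) := fun h =>
    not_isCyclic_sylow_two_PSL2_aux h2 S (isCyclic_of_isCyclic_map h)
  have hS := S.isPGroup'.map (slToPSL F)
  obtain ⟨u, v, huv, h3, h4, -⟩ := L.exists_le_pairStab p (r := 2)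
    (by rintro rfl; exact h2 (CharP.cast_eq_zero F 2)) hS (fun e => h1 (e ▸ inferInstance))
  obtain ⟨b, hb, hb'⟩ := SetLike.not_le_iff_exists.1 fun e => h1 (isCyclic_of_le_torus huv e)
  obtain ⟨⟨a, ha, ha'⟩, h5⟩ := exists_prime_orderOf_dvd_card' 2
    ((hS.to_le inf_le_left).card_eq_or_dvd.resolve_left fun e => h3 (card_eq_one.1 e))
  rw [← orderOf_coe] at h5
  have a2 : a * a = 1 := by have := pow_orderOf_eq_one a; rwa [h5, pow_two] at this
  have h6 := (h4 hb).resolve_left hb'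
  refine ⟨u, v, a, b, huv, h4, ha, hb, ha', hb', a2, mul_self_eq_one_of_swap huv h6.1 h6.2,
    by rintro rfl; simp at h5, by rintro rfl; exact hb' (one_mem _), by rintro rfl; exact hb' ha', ?_⟩
  have h7 := conj_eq_inv_of_swap huv h6.1 h6.2 ha'
  rw [inv_eq_of_mul_eq_one_right a2, mul_inv_eq_iff_eq_mul] at h7
  exact h7.symm

theorem cntP_two_map (h2 : (2 : F) ≠ 0) (S : Sylow 2 SL(2, F)) {N : Subgroup SL(2, F)}
    (h : (S : Subgroup SL(2, F)) ≤ N) : cntP 2 N = cntP 2 (N.map (slToPSL F)) := by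
  obtain ⟨u, v, _, _, -, -, ⟨a, ha, rfl⟩, ⟨b, hb, rfl⟩, -, -, h1⟩ := exists_fourPair_sylow h2 S
  refine cntP_two_of_surj _ ((slToPSL F).subgroupMap_surjective N) ?_
  rintro ⟨z, hz⟩ h3
  rcases slToPSL_eq_one_iff.1 (congrArg Subtype.val h3) with rfl | rfl
  · exact ⟨one_mem _, mul_one _, one_mem _⟩
  refine ⟨mem_center_iff.2 fun g => Subtype.ext (by simp), Subtype.ext (by simp), ?_⟩
  have h4 := SL2_mul_self_eq_neg_one h2 h1.t1 h1.t2
  have h5 := SL2_mul_self_eq_neg_one h2 h1.s1 h1.s2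
  have h6 := SL2_mul_self_eq_neg_one h2 (g := a * b) (by
    rw [map_mul, Ne, mul_eq_one_iff_inv_eq, inv_eq_of_mul_eq_one_right h1.t2]; exact h1.ne) (by
    rw [map_mul, mul_assoc, ← mul_assoc (slToPSL F b), ← h1.comm, mul_assoc, h1.s2, mul_one, h1.t2])
  rw [show (⟨-1, hz⟩ : N) = ⁅(⟨a, h ha⟩ : N), (⟨b, h hb⟩ : N)⁆ from Subtype.ext ?_]
  · exact commutator_mem_commutator (mem_top _) (mem_top _)
  change -1 = a * b * a⁻¹ * b⁻¹
  rw [inv_eq_of_mul_eq_one_right (show a * -a = 1 by rw [mul_neg, h4, neg_neg]),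
    inv_eq_of_mul_eq_one_right (show b * -b = 1 by rw [mul_neg, h5, neg_neg]), ← h6]
  simp [mul_assoc]

theorem cntP_normalizer_two (h2 : (2 : F) ≠ 0) (S : Sylow 2 SL(2, F)) :
    cntP 2 (normalizer ((S : Subgroup SL(2, F)) : Set SL(2, F))) = 4 := by
  have L := isL2_PSL F (AlgebraicClosure F)
  have := L.finite
  rw [cntP_two_map h2 S le_normalizer]
  obtain ⟨u, v, a, b, huv, h1, ha, hb, ha', hb', h3⟩ := exists_fourPair_sylow h2 S
  have hN : (normalizer ((S : Subgroup SL(2, F)) : Set SL(2, F))).map (slToPSL F) =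
      normalizer ((S : Subgroup SL(2, F)).map (slToPSL F) : Set PSL(2, F)) := by
    refine le_antisymm (le_normalizer_map _) fun g hg => ?_
    obtain ⟨g, rfl⟩ := slToPSL_surjective g
    refine ⟨g, ?_, rfl⟩
    have h4 : (slToPSL F).ker ≤ S := by
      rw [ker_slToPSL]
      refine IsPGroup.le_sylow_of_normal (fun z => ⟨1, Subtype.ext ?_⟩) S
      rcases mem_center_SL2_iff.1 z.2 with e | e <;> simp [e]
    have := (comap_normalizer_eq_of_surjective _ slToPSL_surjective).le hg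
    rwa [comap_map_eq_self h4] at this
  rw [hN]
  have hi : ¬ 2 ∣ ((S : Subgroup SL(2, F)).map (slToPSL F)).index :=
    (S.mapSurjective slToPSL_surjective).not_dvd_index
  generalize (S : Subgroup SL(2, F)).map (slToPSL F) = V at *
  by_cases h4 : ∃ g ∈ V ⊓ torus _ u v, g * g ≠ 1
  · obtain ⟨g, ⟨g1, g2⟩, g3⟩ := h4
    have h5 : normalizer (V : Set PSL(2, F)) ≤ pairStab _ u v := fun n hn =>
      mem_pairStab_of_conj_mem huv (by rintro rfl; simp at g3) g2
        ((h1 ((mem_normalizer_iff.1 hn g).1 g1)).resolve_right fun e => g3 (by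
          have := mul_self_eq_one_of_swap huv e.1 e.2
          rwa [conj_mul, conj_eq_one_iff] at this))
    have h6 := (h1 hb).resolve_left hb'
    refine cntP_two_of_inverts (T := (torus _ u v).subgroupOf _) ?_
      (fun s hs t ht => Subtype.ext (torus_mul_comm huv hs ht)) (fun x hx t ht => Subtype.ext ?_) ?_
    · refine index_eq_two_iff_exists_notMem_and.2 ⟨⟨b, le_normalizer hb⟩, hb', fun x => ?_⟩
      rcases h5 x.2 with e | e
      · exact Or.inr e
      · exact Or.inl (mem_torus.2 (⟨by rw [mul_smul, h6.1, e.2], by rw [mul_smul, h6.2, e.1]⟩ :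
          (x.1 * b) • u = u ∧ (x.1 * b) • v = v))
    · have h7 := (h5 x.2).resolve_left hx
      exact conj_eq_inv_of_swap huv h7.1 h7.2 ht
    · refine (Nat.card_eq_two_iff' ⟨1, one_pow 2⟩).2 ⟨⟨⟨⟨a, le_normalizer ha⟩, ha'⟩,
        Subtype.ext (Subtype.ext ((pow_two a).trans h3.t2))⟩,
        fun e => h3.t1 (congrArg (fun z => z.1.1.1) e), fun t ht => ?_⟩
      exact Subtype.ext (Subtype.ext (Subtype.ext (eq_of_mul_self_of_isCyclic (isCyclic_torus huv)
        t.1.2 ha' ((pow_two _).symm.trans (congrArg (fun z => z.1.1) t.2)) h3.t2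
        (fun e => ht (Subtype.ext (Subtype.ext (Subtype.ext e)))) h3.t1)))
  push Not at h4
  have h5 : ∀ g ∈ V, g ∈ torus _ u v → g = 1 ∨ g = a := fun g g1 g2 => or_iff_not_imp_left.2 fun e =>
    eq_of_mul_self_of_isCyclic (isCyclic_torus huv) g2 ha' (h4 g ⟨g1, g2⟩) h3.t2 e h3.t1
  have h6 : V = closure {a, b} := by
    refine le_antisymm (fun g hg => h3.mem_closure.2 ?_)
      ((closure_le _).2 (by rintro _ (rfl | rfl) <;> assumption))
    rcases h1 hg with e | e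
    · rcases h5 g hg e with e | e <;> simp [e]
    · have h6 := (h1 hb).resolve_left hb'
      rcases h5 _ (mul_mem hg hb)
        (mem_torus.2 ⟨by rw [mul_smul, h6.1, e.2], by rw [mul_smul, h6.2, e.1]⟩) with e | e <;> rw [← eq_mul_inv_iff_mul_eq, inv_eq_of_mul_eq_one_right h3.s2] at e <;>
        simp [e]
  have hV : IsKleinFour V := h6 ▸ h3.isKleinFour
  have h7 := normalizer_four_equiv h2 (isKleinFour_map hV L.inj) (map_toPGL_le_psl V)
  obtain ⟨A, h8, hA⟩ := exists_A4_le_of_S4 h7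
  obtain ⟨M, rfl⟩ := exists_map_toPGL_eq (A4_le_psl hA)
  obtain ⟨e⟩ := L.equiv_map_iff.1 hA
  have h9 : M ≤ normalizer (V : Set PSL(2, F)) := fun g hg => mem_normalizer_fintype fun z hz => by
    rw [SetLike.mem_coe, ← mem_map_iff_mem L.inj, map_mul, map_mul, map_inv]
    exact (mem_normalizer_iff.1 (h8 ⟨g, hg, rfl⟩) _).1 ⟨z, hz, rfl⟩
  have h10 := card_dvd_of_le (le_normalizer_map (H := V) ProjectiveSpecialLinearGroup.toPGL)
  rw [card_of_equiv h7, card_S4, card_map_of_injective L.inj] at h10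
  have h11 := card_dvd_of_le h9
  rw [card_of_equiv ⟨e⟩, card_A4] at h11
  have h12 : V.relIndex (normalizer (V : Set PSL(2, F))) * 4 =
      Nat.card (normalizer (V : Set PSL(2, F))) := by
    rw [← hV.card_four, relIndex, ← Nat.card_congr (subgroupOfEquivOfLe le_normalizer).toEquiv,
      index_mul_card]
  have h13 : ¬ 2 ∣ V.relIndex (normalizer (V : Set PSL(2, F))) := fun e =>
    hi (e.trans (relIndex_dvd_index_of_le le_normalizer))
  have h14 := Nat.le_of_dvd (by norm_num) h10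
  rw [← eq_of_le_of_card_ge h9 (by rw [card_of_equiv ⟨e⟩, card_A4]; omega), cntP_congr e, cntP_two_A4]

/-- The McKay equality for `SL₂(q)`, `q` odd. -/
theorem mckay_SL2 (h2 : (2 : F) ≠ 0) (ℓ : ℕ) [hℓ : Fact ℓ.Prime] (S : Sylow ℓ SL(2, F)) :
    cntP ℓ SL(2, F) = cntP ℓ (normalizer ((S : Subgroup SL(2, F)) : Set SL(2, F))) := by
  have := Fintype.ofFinite F
  obtain ⟨p, hp⟩ := CharP.exists F
  have : Fact p.Prime := ⟨CharP.char_is_prime F p⟩
  by_cases h0 : (S : Subgroup SL(2, F)) = ⊥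
  · exact (cntP_congr ((MulEquiv.subgroupCongr (normalizer_eq_top_iff.2 (h0 ▸ inferInstance))).trans
      topEquiv)).symm
  by_cases h1 : ℓ = 2
  · subst h1
    rw [cntP_normalizer_two h2]
    rcases (three_le_card h2).eq_or_lt with h3 | h3
    · obtain ⟨e⟩ := PSL2_three_equiv h3.symm
      rw [← cntP_congr topEquiv, cntP_two_map h2 S le_top, map_top_of_surjective _ slToPSL_surjective,
        cntP_congr (topEquiv.trans e), cntP_two_A4]
    · exact cntP_SL2_two h2 h3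
  by_cases h3 : ℓ = p
  · subst h3
    obtain ⟨n, -, hn⟩ := FiniteField.card F ℓ
    rw [cntP_normalizer_char h2, cntP_SL2_char h2 hℓ.out
      (by rw [Nat.card_eq_fintype_card, hn]; exact dvd_pow_self _ n.ne_zero)]
  obtain ⟨n, h4, rfl | rfl, h5⟩ := cntP_normalizer_ss h2 p h1 h3 S h0
  · rw [h5, cntP_SL2_sub h2 hℓ.out h1 h4]
  · rw [h5, cntP_SL2_add h2 hℓ.out h1 h4]

end CF.Classical
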