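/-
Complements on irreducible subgroups of symplectic groups in characteristic two.
-/
import Cfsg.Agent.Classical.RegGenE
import Cfsg.Agent.Cls.Inv2M
import Cfsg.Agent.Cls.Wall2
import Cfsg.Agent.Cls.Misc
import Cfsg.Agent.S5945

set_option autoImplicit false
set_option linter.unusedSectionVars false

namespace CF.Classical

open Module CF.Geom QuadraticMap CF.Cls

variable {F V : Type*} [Field F] [AddCommGroup V] [Module F V] [FiniteDimensional F V] [Finite F]

section orth

variable {Q : QuadraticForm F V} (h2 : (2 : F) = 0) (hQ : (polarBilin Q).Nondegenerate)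
  (h3 : 3 ≤ finrank F V)
include h2 hQ h3

theorem even_of_eichlerSub {g : OG Q} (hg : g ∈ eichlerSub Q) : Even (finrank F (RU g.1)) := by
  have hQ' := nondegenerate_prod hQ hQ
  have h4 : (∃ a : F, a ≠ 0 ∧ a ≠ 1) ∨ finrank F (V × V) ≠ 4 := Or.inr (by rw [finrank_prod]; omega)
  have h5 : ogProd g (1 : OG Q) ∈ eichlerSub (Q.prod Q) := by
    induction hg using Subgroup.closure_induction with
    | mem x hx =>
      obtain ⟨u, w, hu, hw, rfl⟩ := hx
      convert eichler_mem (Q := Q.prod Q) (u := (u, 0)) (w := (w, 0)) (by simp [hu]) (by simp [hw])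
      ext x <;> simp [ogProd_apply, eichler_apply]
    | one => exact one_mem _
    | mul x y _ _ hx hy => exact mul_mem hx hy
    | inv x _ hx => exact inv_mem hx
  have h6 := (mem_commutator_iff h2 hQ' (reflSub_eq_top hQ' h4) _).1
    (eichlerSub_le_commutator hQ' h4 h5)
  have h7 : RU (ogProd g (1 : OG Q)).1 = (RU g.1).map (LinearMap.inl F V V) := by
    rw [← LinearMap.range_comp]
    ext x
    constructor
    · rintro ⟨y, rfl⟩
      exact ⟨y.1, by ext <;> simp [ogProd_apply]⟩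
    · rintro ⟨y, rfl⟩
      exact ⟨(y, 0), by ext <;> simp [ogProd_apply]⟩
  rwa [h7, ← (Submodule.equivMapOfInjective _ LinearMap.inl_injective _).finrank_eq] at h6

theorem eichlerSub_or {v : V} (hv : Q v ≠ 0) (g : OG Q) :
    g ∈ eichlerSub Q ∨ oRefl Q v * g ∈ eichlerSub Q := by
  obtain ⟨e, -, e0, he⟩ := exists_singular_mem Q (U := ⊤) (by simpa using h3)
  have hc := commutator_le_eichlerSub hQ h3 e0 he
  let π := QuotientGroup.mk' (eichlerSub Q)
  have h1 : (Subgroup.zpowers (π (oRefl Q v))).comap π = ⊤ := by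
    rw [eq_top_iff, ← reflSub_sup_eichlerSub hQ, sup_le_iff, Subgroup.closure_le]
    refine ⟨?_, fun x hx => ?_⟩
    · rintro _ ⟨w, hw, rfl⟩
      obtain ⟨k, hk⟩ := exists_conj_oRefl hQ hw hv (isSquare_of_two_eq_zero h2 _)
      have : π (oRefl Q w) = π (oRefl Q v) := by
        rw [QuotientGroup.mk'_apply, QuotientGroup.mk'_apply, QuotientGroup.eq, hk]
        refine hc ?_
        have := Subgroup.commutator_mem_commutator (Subgroup.mem_top k)
          (Subgroup.mem_top (oRefl Q v)⁻¹)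
        simpa [commutatorElement_def, mul_assoc, commutator_def] using this
      exact Subgroup.mem_comap.2 (this ▸ Subgroup.mem_zpowers _)
    · have : π x = 1 := (QuotientGroup.eq_one_iff x).2 hx
      exact Subgroup.mem_comap.2 (this ▸ one_mem _)
  obtain ⟨k, hk⟩ := Subgroup.mem_comap.1 (h1 ▸ Subgroup.mem_top g)
  have h4 : π (oRefl Q v) ^ (2 : ℤ) = 1 := by
    rw [zpow_two, ← map_mul, oRefl_mul_self, map_one]
  beta_reduce at hk
  obtain ⟨j, rfl | rfl⟩ := Int.even_or_odd' k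
  · rw [zpow_mul, h4, one_zpow] at hk
    exact Or.inl ((QuotientGroup.eq_one_iff g).1 hk.symm)
  · rw [zpow_add_one, zpow_mul, h4, one_zpow, one_mul] at hk
    refine Or.inr ((QuotientGroup.eq_one_iff _).1 (?_ : π _ = 1))
    rw [map_mul, ← hk, ← zpow_two, h4]

theorem mem_eichlerSub_iff (g : OG Q) : g ∈ eichlerSub Q ↔ Even (finrank F (RU g.1)) := by
  refine ⟨even_of_eichlerSub h2 hQ h3, fun h => ?_⟩
  have : Nontrivial V := nontrivial_of_finrank_pos (R := F) (by omega)
  obtain ⟨v, hv⟩ := exists_nonsingular hQ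
  refine (eichlerSub_or h2 hQ h3 hv g).resolve_right fun h' => ?_
  exact Nat.not_even_iff_odd.2 (finrank_RU_oRefl_mul hQ hv g)
    ((even_of_eichlerSub h2 hQ h3 h').add h)

theorem eq_OG_or {L : Subgroup (V ≃ₗ[F] V)} (h1 : L ≤ OG Q) (hE : ∀ g ∈ eichlerSub Q, g.1 ∈ L) :
    L = OG Q ∨ ∀ g, g ∈ L ↔ g ∈ OG Q ∧ Even (finrank F (RU g)) := by
  by_cases h : ∀ g (hg : g ∈ L), (⟨g, h1 hg⟩ : OG Q) ∈ eichlerSub Q
  · exact Or.inr fun g => ⟨fun hg => ⟨h1 hg, even_of_eichlerSub h2 hQ h3 (g := ⟨g, h1 hg⟩) (h g hg)⟩,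
      fun hg => hE ⟨g, hg.1⟩ ((mem_eichlerSub_iff h2 hQ h3 ⟨g, hg.1⟩).2 hg.2)⟩
  push Not at h
  obtain ⟨k, hk, h⟩ := h
  have : Nontrivial V := nontrivial_of_finrank_pos (R := F) (by omega)
  obtain ⟨v, hv⟩ := exists_nonsingular hQ
  have h4 : (oRefl Q v).1 ∈ L := by
    simpa using mul_mem (hE _ ((eichlerSub_or h2 hQ h3 hv _).resolve_left h)) (inv_mem hk)
  refine Or.inl (le_antisymm h1 fun g hg => ?_)
  rcases eichlerSub_or h2 hQ h3 hv ⟨g, hg⟩ with h5 | h5
  · exact hE _ h5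
  · simpa using mul_mem (inv_mem h4) (hE _ h5)

end orth

theorem large_sub_perm_six {H : Subgroup (Equiv.Perm (Fin 6))} (h : 120 ≤ Nat.card H)
    (h0 : H ≠ ⊤) : Nonempty (H ≃* alternatingGroup (Fin 6)) ∨ Nonempty (H ≃* Equiv.Perm (Fin 5)) := by
  by_cases hA : alternatingGroup (Fin 6) ≤ H
  · have := alternatingGroup.index_eq_two (α := Fin 6) ▸ Subgroup.index_dvd_of_le hA
    rcases (Nat.dvd_prime Nat.prime_two).1 this with h1 | h1
    · exact absurd (Subgroup.index_eq_one.1 h1) h0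
    · exact Or.inl ⟨MulEquiv.subgroupCongr (Equiv.Perm.eq_alternatingGroup_of_index_eq_two h1)⟩
  have h6 := Fintype.card_fin 6
  obtain ⟨θ, hθ⟩ := CF.Perm.exists_outer h6
  have h1 := H.index_mul_card
  rw [Nat.card_perm, Nat.card_fin] at h1
  refine Or.inr (Cfsg.Agent.S5945.result.2.1 H ?_)
  obtain ⟨x, rfl | rfl⟩ := CF.Perm.index_six_perm h6 hθ hA (by
    simp only [Nat.factorial] at h1; nlinarith)
  · rw [MulAction.index_stabilizer_of_transitive, Nat.card_fin]
  · rw [Subgroup.index_map_of_bijective θ.bijective, MulAction.index_stabilizer_of_transitive,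
      Nat.card_fin]

namespace SpTwo

variable {B : LinearMap.BilinForm F V} {L : Subgroup (V ≃ₗ[F] V)} (h : SpTwo B L) {s a : V}
include h

theorem le_rad {P : Subgroup (V ≃ₗ[F] V)} (hP : IsPGroup 2 P) (ha : a ≠ 0)
    (h1 : ∀ x ∈ P, x ∈ UG B ∧ x a = a) (h2 : ∀ g ∈ UG B, g a = a → ∀ x ∈ P, g⁻¹ * x * g ∈ P) :
    P ≤ Rad B (fun x => B x x) a ⊤ := by
  have : CharP F 2 := CharTwo.of_one_ne_zero_of_two_eq_zero one_ne_zero h.h2
  have : Finite V := Module.finite_of_finite F
  have : Finite (V ≃ₗ[F] V) := Finite.of_injective _ DFunLike.coe_injective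
  obtain ⟨f, hf⟩ := h.hE.exists_HH ha (h.z a)
  obtain ⟨v, hv, h3⟩ := exists_fixed_mod 2 hP
    ((LinearEquiv.automorphismGroup.toLinearMapMonoidHom).comp P.subtype) (F ∙ a)
    (fun g v hv => by
      obtain ⟨c, rfl⟩ := Submodule.mem_span_singleton.1 hv
      exact Submodule.mem_span_singleton.2 ⟨c, by simp [(h1 _ g.2).2]⟩)
    (fun e => by
      obtain ⟨c, rfl⟩ := Submodule.mem_span_singleton.1 (e ▸ Submodule.mem_top (x := f))
      simpa [h.z] using hf.hef)
  replace h3 : ∀ x ∈ P, x v - v ∈ F ∙ a := fun x hx => h3 ⟨x, hx⟩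
  have h4 : ∀ z, B a z = 0 → B z v ≠ 0 → ∀ x ∈ P, x z - z ∈ F ∙ a := fun z hz hzv x hx => by
    have t1 : rd B (-1) z 0 1 ∈ UG B := h.hE.rd_mem_UG (h.z z) (map_zero _) (cond_alt h.hA _ _)
    have t2 : rd B (-1) z 0 1 a = a := by simp [h.tapp, h.sy z a, hz]
    obtain ⟨c, hc⟩ := Submodule.mem_span_singleton.1 (h3 _ (h2 _ t1 t2 x hx))
    have t3 := congrArg (rd B (-1) z 0 1) hc
    rw [map_smul, t2, map_sub, LinearEquiv.mul_apply, LinearEquiv.mul_apply, apply_inv_apply,
      h.tapp, one_mul, map_add, map_smul] at t3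
    have t4 := (F ∙ a).smul_mem (B z v)⁻¹
      (sub_mem (Submodule.mem_span_singleton.2 ⟨c, t3⟩) (h3 x hx))
    convert t4 using 1
    match_scalars <;> field_simp <;> ring
  obtain ⟨z, z1, z2⟩ := h.hE.witt.exists_dual_vec hv
  have z3 := z2 a (Submodule.mem_span_singleton_self a)
  refine fun x hx => ⟨(h1 x hx).1, (h1 x hx).2, fun y hy => ?_, fun _ => trivial⟩
  by_cases h5 : B y v = 0
  · convert sub_mem (h4 (y + z) (by simp [hy, z3]) (by simp [h5, h.sy z v, z1]) x hx)
      (h4 z z3 (by simp [h.sy z v, z1]) x hx) using 1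
    rw [map_add]; abel
  · exact h4 y hy h5 x hx

theorem fu_of_card {X : Subgroup (V ≃ₗ[F] V)} (ha : a ≠ 0) (hX : X ≤ Rad B (fun x => B x x) a ⊤)
    (hL : X ≤ L) (hc : Nat.card X = Nat.card F ^ (finrank F V - 2))
    (ht : ∀ c, c ≠ 0 → rd B (-1) a 0 c ∉ X) : Fu B L a := by
  have : Finite V := Module.finite_of_finite F
  have : Finite (V ≃ₗ[F] V) := Finite.of_injective _ DFunLike.coe_injective
  obtain ⟨f, hf⟩ := h.hE.exists_HH ha (h.z a)
  have h1 : ∀ x : X, ∃ u : Upr B a f, ∃ c, x.1 = rd B (-1) a u c := fun x => by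
    obtain ⟨w, -, c, hw, -, e⟩ := h.hE.exists_eq_rd ha (h.z a) (hX x.2)
    refine ⟨⟨_, hf.proj_mem hw⟩, c, ?_⟩
    dsimp only
    rw [e, sub_eq_add_neg, ← neg_smul, h.hE.rd_shift (h.z a) hw]
    congr 1
    simp only [RingHom.id_apply]
    linear_combination B f w * h.h2
  choose u c hu using h1
  have h2 : Function.Injective u := fun x y e => by
    have h3 := mul_mem x.2 (inv_mem y.2)
    rw [hu x, hu y, e, h.hE.rd_div (h.z a) (mem_Upr.1 (u y).2).1] at h3
    refine Subtype.ext ?_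
    rw [hu x, hu y, e, sub_eq_zero.1 (by_contra fun h4 => ht _ h4 h3)]
  have h3 := (h2.bijective_of_nat_card_le (by
    rw [hc, Module.natCard_eq_pow_finrank (K := F), ← hf.finrank_U, Nat.add_sub_cancel])).2
  refine ⟨ha, fun w hw => ?_⟩
  obtain ⟨x, hx⟩ := h3 ⟨_, hf.proj_mem hw⟩
  have h4 := hL x.2
  rw [hu x, hx] at h4
  exact ⟨_, h.congr (h.shift (mem_Upr.1 (hf.proj_mem hw)).1 (-1 * B f w) h4) (by simp) rfl⟩

theorem exc_trans (hF : Nat.card F = 2) (hs : Fu B L s) (ha : B s a = 0) (has : a ∉ F ∙ s)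
    (hk : rd B (-1) s 0 1 * rd B (-1) a 0 1 ∈ L) {x : V} (hx : x ≠ 0) :
    x ∈ MulAction.orbit L s := by
  have m : ∀ {y z : V} {g : V ≃ₗ[F] V}, y ∈ MulAction.orbit L s → g ∈ L → g y = z →
      z ∈ MulAction.orbit L s := by
    rintro _ _ g ⟨k, rfl⟩ hg rfl
    exact ⟨⟨g, hg⟩ * k, rfl⟩
  obtain ⟨g, hg, h1⟩ := h.irr.exists_move h.hE.witt.nondeg hs.1 hs.1
  replace h1 := (card_two_cases hF _).resolve_left h1
  have hf := m (MulAction.mem_orbit_self s) hg rfl
  set f := g s
  have h2 := h.h2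
  have hfs : f + s ∈ MulAction.orbit L s := by
    rcases card_two_cases hF (B a f) with h3 | h3
    · exact m hf hk (by simp [h.tapp, h1, h3])
    · refine m (m hf hk rfl) (h.sq_mem hs ha has one_ne_zero hk 1) ?_
      rw [h.app (by simp [ha])]
      simp only [LinearEquiv.mul_apply, h.tapp, map_add, map_smul, h1, h3, ha, h.z, smul_eq_mul,
        h.sy a s, one_smul]
      match_scalars <;> grind
  obtain ⟨g', hg', h3⟩ := h.irr.exists_move h.hE.witt.nondeg hx hs.1
  have h4 : B s (g'⁻¹ x) = 1 := by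
    rw [← ug_map (h.le hg'), apply_inv_apply, h.sy]; exact (card_two_cases hF _).resolve_left h3
  refine m ?_ hg' (apply_inv_apply g' x)
  set y := g'⁻¹ x
  have h5 : B s (y + f) = 0 := by rw [map_add, h4, h1]; linear_combination h2
  obtain ⟨c, hc⟩ := hs.2 _ h5
  rcases card_two_cases hF (B (y + f) f + c) with h6 | h6
  · refine m hf hc ?_
    rw [h.app h5, h1, mul_one, h6]; match_scalars <;> grind
  · refine m hfs hc ?_
    rw [h.app h5, map_add (B s), map_add (B (y + f)), h1, h.z, h.sy _ s, h5, add_zero, add_zero,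
      mul_one, h6]
    match_scalars <;> grind

theorem exc_card (hX : SpExc B L) (h4 : finrank F V = 4) : 120 ≤ Nat.card L := by
  have : Finite V := Module.finite_of_finite F
  have : Finite (V ≃ₗ[F] V) := Finite.of_injective _ DFunLike.coe_injective
  obtain ⟨hF, hall, s, a, s0, ha, has, hk⟩ := hX
  have h1 : 15 ≤ (MulAction.stabilizer L s).index := by
    rw [MulAction.index_stabilizer]
    have := Set.ncard_le_ncard (s := {0}ᶜ) (t := MulAction.orbit L s)
      fun x hx => h.exc_trans hF (hall s s0) ha has hk hx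
    have h2 := Set.ncard_add_ncard_compl ({0} : Set V)
    rw [Set.ncard_singleton, Module.natCard_eq_pow_finrank (K := F), hF, h4] at h2
    omega
  obtain ⟨f, hf⟩ := h.hE.exists_HH s0 (h.z s)
  choose c hc using fun u : Upr B s f => (hall s s0).2 u (mem_Upr.1 u.2).1
  have f1 : ∀ u : Upr B s f, rd B (-1) s u (c u) s = s := fun u => by
    simp [h.app (mem_Upr.1 u.2).1, h.z, h.sy u s, (mem_Upr.1 u.2).1]
  have f2 : (rd B (-1) s 0 1 * rd B (-1) a 0 1) s = s := by simp [h.tapp, h.z, h.sy a s, ha]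
  have i1 : ∀ u u' : Upr B s f, rd B (-1) s u (c u) = rd B (-1) s u' (c u') → u = u' :=
    fun u u' e => by
      have e1 := LinearEquiv.congr_fun e f
      rw [h.app (mem_Upr.1 u.2).1, h.app (mem_Upr.1 u'.2).1, hf.hef] at e1
      have e2 := congrArg (B f) e1
      simp only [map_add, map_smul, (mem_Upr.1 u.2).2, (mem_Upr.1 u'.2).2, hf.hfe, smul_eq_mul,
        mul_zero, add_right_inj, mul_neg, mul_one, neg_inj] at e2
      rw [mul_one, mul_one, e2] at e1
      simpa using e1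
  have i2 : ∀ u u' : Upr B s f,
      rd B (-1) s 0 1 * rd B (-1) a 0 1 * rd B (-1) s u (c u) ≠ rd B (-1) s u' (c u') :=
    fun u u' e => by
      obtain ⟨y, y1, y2⟩ := h.hE.witt.exists_dual_vec has
      have y3 := y2 s (Submodule.mem_span_singleton_self s)
      have e1 := LinearEquiv.congr_fun e y
      simp only [LinearEquiv.mul_apply, h.app (mem_Upr.1 u.2).1, h.app (mem_Upr.1 u'.2).1, h.tapp,
        y1, y3, map_add, map_smul, h.z, h.sy a s, ha] at e1
      refine has (Submodule.mem_span_singleton.2 ⟨B u' y - B u y, ?_⟩)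
      linear_combination (norm := module) -e1
  have h2 := Nat.card_le_card_of_injective (Sum.elim
    (fun u => ⟨⟨_, hc u⟩, f1 u⟩) (fun u => ⟨⟨_, mul_mem hk (hc u)⟩, by
      change (rd B (-1) s 0 1 * rd B (-1) a 0 1) (rd B (-1) s u (c u) s) = s
      rw [f1, f2]⟩) : Upr B s f ⊕ Upr B s f → MulAction.stabilizer L s) (by
    rintro (u | u) (u' | u') e <;> replace e := congrArg (·.1.1) e
    · exact congrArg _ (i1 _ _ e)
    · exact absurd e.symm (i2 _ _)
    · exact absurd e (i2 _ _)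
    · exact congrArg _ (i1 _ _ (mul_left_cancel e)))
  have h3 := hf.finrank_U
  rw [Nat.card_sum, Module.natCard_eq_pow_finrank (K := F), hF, show finrank F (Upr B s f) = 2 by omega]
    at h2
  rw [← (MulAction.stabilizer L s).index_mul_card]
  nlinarith

end SpTwo

end CF.Classical
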