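import Cfsg.Agent.Classical.MaxL2c
import Cfsg.Agent.Classical.OddGraph

/-! Solubilizers in `PSL₂(2^p)` and `PSL₂(3^p)`. -/

set_option autoImplicit false

open MulAction Subgroup Matrix OnePoint
open scoped MatrixGroups

namespace CF.Classical

theorem ncard_eq_mul_of_rel {α β : Type*} {S : Set α} (hS : S.Finite) {T : Set β}
    (R : α → β → Prop) (h1 : ∀ a ∈ S, ∃ b ∈ T, R a b) (h2 : ∀ a ∈ S, ∀ b b', R a b → R a b' → b = b')
    {m : ℕ} (hT : T.Finite) (h3 : ∀ b ∈ T, {a ∈ S | R a b}.ncard = m) : S.ncard = T.ncard * m := by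
  classical
  rcases S.eq_empty_or_nonempty with rfl | ⟨a₀, h₀⟩
  · rcases T.eq_empty_or_nonempty with rfl | ⟨b, hb⟩
    · simp
    · simp [← h3 b hb]
  have : Nonempty β := ⟨(h1 a₀ h₀).choose⟩
  choose! f f1 f2 using h1
  rw [Set.ncard_eq_toFinset_card S hS, Set.ncard_eq_toFinset_card T hT,
    Finset.card_eq_sum_card_fiberwise (f := f) (t := hT.toFinset) (by simpa [Set.MapsTo] using f1),
    Finset.sum_congr rfl (g := fun _ => m) fun b hb => ?_, Finset.sum_const, smul_eq_mul]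
  rw [← h3 b (by simpa using hb), ← Set.ncard_coe_finset]
  congr 1
  ext a
  simp only [Finset.coe_filter, Set.Finite.mem_toFinset, Set.mem_setOf_eq]
  exact and_congr_right fun ha => ⟨fun e => e ▸ f2 a ha, fun e => h2 a ha _ _ (f2 a ha) e⟩

section
variable {G : Type*} [Group G]

/-- The solubilizer. -/
def Sol (x : G) : Set G := {y | Group.IsSolvable (closure ({x, y} : Set G))}

theorem mem_Sol_of_mem {x y : G} {S : Subgroup G} (h : Group.IsSolvable S) (hx : x ∈ S)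
    (hy : y ∈ S) : y ∈ Sol x :=
  isSolvable_of_le ((closure_le S).2 (by rintro _ (rfl | rfl) <;> assumption)) h

theorem Sol.left (x y : G) : x ∈ closure ({x, y} : Set G) := subset_closure (by simp)

theorem Sol.right (x y : G) : y ∈ closure ({x, y} : Set G) := subset_closure (by simp)

theorem mem_Sol_of_mul {x y : G} (h : x * y ∈ Sol x) : y ∈ Sol x :=
  mem_Sol_of_mem h (Sol.left _ _) (by
    simpa using mul_mem (inv_mem (Sol.left x (x * y))) (Sol.right x (x * y)))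

theorem mem_Sol_symm {x y : G} (h : x ∈ Sol y) : y ∈ Sol x :=
  mem_Sol_of_mem h (Sol.right _ _) (Sol.left _ _)

theorem mem_Sol_of_tri {x y : G} (hx : x ^ 2 = 1) (hy : y ^ 3 = 1) (h : (x * y) ^ 3 = 1) :
    y ∈ Sol x := by
  obtain ⟨f, -, -, h1⟩ := exists_hom_A4 hx hy h
  have := isSolvable_A4
  rw [Sol, Set.mem_setOf_eq, ← h1]
  exact Group.isSolvable_of_surjective f.rangeRestrict_surjective

theorem ncard_mul_preimage (x : G) (S : Set G) : {y | x * y ∈ S}.ncard = S.ncard :=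
  Set.ncard_preimage_of_injective_subset_range (f := fun y => x * y) (mul_right_injective x)
    (by rw [(mul_left_surjective x).range_eq]; simp)

theorem ncard_conj_preimage (g : G) (S : Set G) : {y | g * y * g⁻¹ ∈ S}.ncard = S.ncard :=
  Set.ncard_preimage_of_injective_subset_range (s := S) (f := MulAut.conj g) (MulEquiv.injective _)
    (by rw [(MulEquiv.surjective _).range_eq]; simp)

theorem ncard_subgroup (S : Subgroup G) : (S : Set G).ncard = Nat.card S := rfl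

theorem A4_invol (a b : alternatingGroup (Fin 4)) (h : a * a = 1) :
    b * b = 1 ∨ (b ^ 3 = 1 ∧ (a * b) ^ 3 = 1) := by
  revert a b; decide +kernel

theorem A4_three (a b : alternatingGroup (Fin 4)) (h : a ≠ 1) (h3 : a ^ 3 = 1) :
    (b = 1 ∨ b = a ∨ b = a * a) ∨ (b * b = 1 ∧ (b * a) ^ 3 = 1) ∨
      (a * b * (a * b) = 1 ∧ (a * b * a) ^ 3 = 1) ∨
      (a * (a * b) * (a * (a * b)) = 1 ∧ (a * (a * b) * a) ^ 3 = 1) := by
  revert a b; decide +kernel

theorem A4_pow (a : alternatingGroup (Fin 4)) : a * a = 1 ∨ a ^ 3 = 1 := by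
  revert a; decide

theorem S3_normal (a : Equiv.Perm (Fin 3)) :
    a * finRotate 3 * a⁻¹ = finRotate 3 ∨ a * finRotate 3 * a⁻¹ = (finRotate 3)⁻¹ := by
  revert a; decide

end

variable {F k : Type*} [Field F] [Field k] [Algebra F k]

theorem smul_swap_iff {g : PGL(2, F)} :
    (g • (∞ : OnePoint k) = ((0 : k) : OnePoint k) ∧ g • ((0 : k) : OnePoint k) = ∞) ↔
      ∃ (s : F) (h : s ≠ 0), g = pgl 0 s 1 0 (by simpa using h) := by
  constructor
  · obtain ⟨a, b, c, d, h, rfl⟩ := exists_pgl g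
    rw [pgl_smul_infty_eq_coe, pgl_smul_coe_eq_infty]
    simp only [zero_mul, mul_zero, zero_add, map_eq_zero, eq_comm (a := (0 : k))]
    rintro ⟨rfl, rfl⟩
    have c0 : c ≠ 0 := by rintro rfl; simp at h
    have b0 : b ≠ 0 := by rintro rfl; simp at h
    exact ⟨b / c, div_ne_zero b0 c0, pgl_congr _ _ c⁻¹ (by simp) (by ring) (by simp [c0]) (by simp)⟩
  · rintro ⟨s, h, rfl⟩
    rw [pgl_smul_infty_eq_coe, pgl_smul_coe_eq_infty]; simp

theorem swap_mul_aff_pow_three {s β : F} (h : s ≠ 0) :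
    (pgl 0 s 1 0 (by simpa using h) * aff 1 β one_ne_zero) ^ 3 = 1 ↔ s = -β ^ 2 := by
  rw [pow_three_eq_one_iff_tau, aff, pgl_mul, tau_pgl, pgl_eq_one_iff,
    div_eq_one_iff_eq (by simpa using h)]
  simp only [zero_mul, mul_zero, add_zero, mul_one, one_ne_zero, false_and, and_false, false_or,
    zero_add, one_mul, zero_sub]
  exact ⟨fun e => by rw [e, neg_neg], fun e => by rw [e, neg_neg]⟩

namespace IsL2

variable {Γ : Type*} [Group Γ] [MulAction Γ (OnePoint k)] {φ : Γ →* PGL(2, F)} (L : IsL2 φ k)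
  [IsKlein Γ (OnePoint k)] [Finite F]
include L

theorem mem_Sol_of_invol {x y : Γ} (hx : x * x = 1) (hy : y * y = 1) : y ∈ Sol x := by
  have := L.finite
  have h1 : x * (x * y) * x⁻¹ = (x * y)⁻¹ := by
    rw [← mul_assoc, hx, one_mul, _root_.mul_inv_rev, inv_eq_of_mul_eq_one_right hy]
  refine mem_Sol_of_mul ?_
  by_cases h0 : x * y = 1
  · rw [h0]
    exact mem_Sol_of_mem (S := zpowers x) (Group.isSolvable_of_comm fun a b => mul_comm' a b)
      (mem_zpowers x) (one_mem _)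
  rcases isUnip_or_mem_torus (OnePoint k) h0 with ⟨a, ha⟩ | ⟨u, v, huv, h⟩
  · obtain ⟨a, rfl⟩ := L.mem_range_of_isUnip ha
    exact mem_Sol_of_mem (L.isSolvable_stabilizer a) ((ha.conj x).eq (h1 ▸ ha.inv)) ha.1
  · exact mem_Sol_of_mem (isSolvable_pairStab huv)
      (mem_pairStab_of_conj_mem huv h0 h (h1 ▸ inv_mem h)) (torus_le_pairStab _ _ h)

theorem ncard_invol_move (a : OnePoint F) :
    {y : Γ | y * y = 1 ∧ y • ratPt k a ≠ ratPt k a}.ncard * φ.range.index =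
      Nat.card F * (Nat.card F - 1) := by
  have := L.finite
  obtain ⟨b, hb⟩ : ∃ b, a ≠ b := by
    have : Nontrivial (OnePoint F) := ⟨⟨∞, (0 : F), by simp⟩⟩
    exact (exists_ne a).imp fun _ h => h.symm
  have h0 := L.index_pos
  rw [ncard_eq_mul_of_rel (Set.toFinite _) (T := {a}ᶜ) (fun y b => y • ratPt k a = ratPt k b)
    (m := Nat.card (torus Γ (ratPt k a) (ratPt k b))) ?_
    (fun y _ b b' h h' => ratPt_injective (h.symm.trans h')) (Set.toFinite _) ?_, mul_assoc,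
    L.card_torus_ratPt hb, Set.ncard_compl, Set.ncard_singleton, card_onePoint, Nat.add_sub_cancel]
  · rintro y ⟨-, h⟩
    obtain ⟨c, hc⟩ := (L.smul_mem_range_iff y).2 ⟨a, rfl⟩
    exact ⟨c, fun e => h (by rw [← hc, e]), hc.symm⟩
  · intro c hc
    have hc : a ≠ c := fun e => hc e.symm
    obtain ⟨t, t1, t2⟩ := L.exists_swap_ratPt a c hc
    have h1 : ratPt k a ≠ ratPt k c := ratPt_injective.ne hc
    rw [Nat.eq_of_mul_eq_mul_right h0 ((L.card_torus_ratPt hb).trans (L.card_torus_ratPt hc).symm),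
      ← ncard_subgroup, ← ncard_mul_preimage t (torus Γ _ _ : Set Γ)]
    congr 1
    ext y
    simp only [Set.mem_setOf_eq, SetLike.mem_coe, mem_torus, mul_smul]
    constructor
    · rintro ⟨⟨h2, -⟩, h3⟩
      exact ⟨by rw [h3, t2], by rw [← h3, ← mul_smul y y, h2, one_smul, h3, t1]⟩
    · rintro ⟨h2, h3⟩
      have h4 : y • ratPt k a = ratPt k c := smul_left_cancel t (h2.trans t2.symm)
      have h5 : y • ratPt k c = ratPt k a := smul_left_cancel t (h3.trans t1.symm)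
      exact ⟨⟨mul_self_eq_one_of_swap h1 h4 h5, h4 ▸ h1.symm⟩, h4⟩

variable [IsAlgClosed k]

theorem solvable_cases (hr : φ.range = psl F) {r p : ℕ} (hp : p.Prime) (hF : Nat.card F = r ^ p)
    (h : r = 2 ∨ (r = 3 ∧ Odd p)) {S : Subgroup Γ} (hS : Group.IsSolvable S) :
    (∃ x : OnePoint F, S ≤ stabilizer Γ (ratPt k x)) ∨
    (∃ x y : OnePoint k, x ≠ y ∧ S ≤ pairStab Γ x y) ∨
    (r = 3 ∧ Nonempty (S ≃* alternatingGroup (Fin 4))) := by
  have := L.finite
  have hr' : r.Prime := by rcases h with rfl | ⟨rfl, -⟩ <;> norm_num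
  have := Fintype.ofFinite F
  have : Fact r.Prime := ⟨hr'⟩
  have : CharP F r := charP_of_card_eq_prime_pow (by rwa [← Nat.card_eq_fintype_card])
  have h4 : 4 ≤ Nat.card F := by
    rw [hF]
    exact (Nat.pow_le_pow_left hr'.two_le 2).trans (Nat.pow_le_pow_right hr'.pos hp.two_le)
  have n5 : ¬ Nonempty (S ≃* alternatingGroup (Fin 5)) := fun ⟨e⟩ =>
    not_isSolvable_A5 (isSolvable_of_equiv e.symm hS)
  rcases L.dickson S with h1 | ⟨x, y, hxy, -, h1⟩ | ⟨h0, h1⟩ | ⟨-, h1⟩ | ⟨K, c, H, h1, h2⟩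
  · exact Or.inl h1
  · exact Or.inr (Or.inl ⟨x, y, hxy, h1⟩)
  · exfalso
    have h2 : r ∣ Nat.card S := by
      refine (show r ∣ 12 by rcases h with rfl | ⟨rfl, -⟩ <;> norm_num).trans ?_
      rcases h1 with h1 | h1 | h1 <;> rw [card_of_equiv h1]
      · rw [card_A4]
      · rw [card_S4]; norm_num
      · rw [card_A5]; norm_num
    obtain ⟨g, hg⟩ := exists_prime_orderOf_dvd_card' r h2
    obtain ⟨x, hx⟩ := L.exists_mem_unip r (g := g.1) (n := 1) (by
      rw [pow_one, ← hg, ← orderOf_coe, pow_orderOf_eq_one])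
    have h3 : g.1 = 1 := mem_bot.1 (h0 _ ▸ (⟨g.2, hx⟩ : g.1 ∈ S ⊓ unip Γ _))
    rw [show g = 1 from Subtype.ext h3, orderOf_one] at hg
    exact hr'.one_lt.ne hg
  · exact absurd h1 n5
  have hK : K ≠ ⊤ := ne_top_of_map_subPGL (c := c) h1 fun e => L.not_isSolvable h4 (h2 ▸ e) hS
  have hc : Nat.card K = r := by
    obtain ⟨m, -, hm⟩ := card_subfield_pow_of_le (K := K) le_top
    rw [card_subfield_top, hF] at hm
    obtain ⟨a, -, ha⟩ := (Nat.dvd_prime_pow hr').1 (show Nat.card K ∣ r ^ p from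
      hF ▸ card_subfield_top (F := F) ▸ (hm.trans (hF.symm.trans card_subfield_top.symm)) ▸
        dvd_pow_self _ (by rintro rfl; rw [pow_zero, ← hF] at hm; omega))
    rw [ha, ← pow_mul] at hm
    rcases (Nat.dvd_prime hp).1 ⟨m, (Nat.pow_right_injective hr'.two_le hm).symm⟩ with e | e
    · rw [ha, e, pow_one]
    · exact absurd (subfield_eq_top_iff_card.2 (by rw [ha, e, hF])) hK
  have h5 : H = ⊤ → Nonempty (S.map φ ≃* PGL(2, K)) := by
    rintro rfl
    rw [h2, ← MonoidHom.range_eq_map]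
    exact range_subPGL_equiv K c
  rcases h with rfl | ⟨rfl, ho⟩
  · obtain ⟨e⟩ := L.equiv_map_iff.1 (h5 (top_le_iff.1 ((psl_eq_top
      (two_eq_zero_of_even_card (by rw [hc]; decide))).ge.trans h1)))
    obtain ⟨e'⟩ := PGL2_two_equiv hc
    set g := (e.trans e').symm (finRotate 3) with hg
    have g3 : orderOf g.1 = 3 := by
      rw [orderOf_coe, hg, MulEquiv.orderOf_eq]
      exact orderOf_eq_prime (by decide) (by decide)
    obtain ⟨u, v, huv, h6⟩ := L.exists_mem_torus 2 (g := g.1) (by rw [g3]; decide)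
    refine Or.inr (Or.inl ⟨u, v, huv, fun s hs =>
      mem_pairStab_of_conj_mem huv (by rintro e; simp [e] at g3) h6 ?_⟩)
    rcases S3_normal ((e.trans e') ⟨s, hs⟩) with h7 | h7 <;>
      have h8 := congrArg (fun z => (((e.trans e').symm z : S) : Γ)) h7 <;>
      simp only [map_mul, map_inv, MulEquiv.symm_apply_apply, ← hg, coe_mul, coe_inv] at h8 <;>
      rw [h8]
    · exact h6
    · exact inv_mem h6
  · have h6 : (2 : F) ≠ 0 := fun e => by
      have := (CharP.cast_eq_zero_iff F 3 2).1 (by exact_mod_cast e)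
      omega
    rcases eq_psl_or_eq_top h1 with rfl | rfl
    · obtain ⟨e⟩ := L.equiv_map_iff.1 (h2 ▸ map_subPGL_psl_equiv K c)
      obtain ⟨e'⟩ := PSL2_three_equiv hc
      exact Or.inr (Or.inr ⟨rfl, ⟨e.trans e'⟩⟩)
    · obtain ⟨e⟩ := h5 rfl
      obtain ⟨e'⟩ := PGL2_three_equiv hc
      have h7 := (isSquare_two_iff_card h6).1
        ((S4_le_psl_iff h6 ⟨e.trans e'⟩).1 (hr ▸ map_le_range _ _))
      have := pow_odd_mod_eight (a := 3) rfl ho
      omega

theorem mem_Sol_cases (hr : φ.range = psl F) {r p : ℕ} (hp : p.Prime) (hF : Nat.card F = r ^ p)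
    (h : r = 2 ∨ (r = 3 ∧ Odd p)) {x y : Γ} (hy : y ∈ Sol x) :
    (∃ a : OnePoint F, x • ratPt k a = ratPt k a ∧ y • ratPt k a = ratPt k a) ∨
    (∃ u v : OnePoint k, u ≠ v ∧ x ∈ torus Γ u v ∧ y ∈ pairStab Γ u v) ∨
    (x * x = 1 ∧ (y * y = 1 ∨ x * y * (x * y) = 1)) ∨
    (r = 3 ∧ Nonempty (closure ({x, y} : Set Γ) ≃* alternatingGroup (Fin 4))) := by
  have := L.finite
  rcases L.solvable_cases hr hp hF h hy with ⟨a, h1⟩ | ⟨u, v, huv, h1⟩ | h1
  · exact Or.inl ⟨a, h1 (Sol.left _ _), h1 (Sol.right _ _)⟩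
  · rcases h1 (Sol.left _ _) with h2 | h2
    · exact Or.inr (Or.inl ⟨u, v, huv, h2, h1 (Sol.right _ _)⟩)
    refine Or.inr (Or.inr (Or.inl ⟨mul_self_eq_one_of_swap huv h2.1 h2.2, ?_⟩))
    rcases h1 (Sol.right _ _) with h3 | h3
    · exact Or.inr (mul_self_eq_one_of_swap huv (by rw [mul_smul, h3.1, h2.1])
        (by rw [mul_smul, h3.2, h2.2]))
    · exact Or.inl (mul_self_eq_one_of_swap huv h3.1 h3.2)
  · exact Or.inr (Or.inr (Or.inr h1))

theorem mem_Sol_iff_of_torus (hr : φ.range = psl F) {r p : ℕ} (hp : p.Prime)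
    (hF : Nat.card F = r ^ p) (h : r = 2 ∨ (r = 3 ∧ Odd p)) {x y : Γ} (x2 : x * x ≠ 1)
    {u v : OnePoint k} (huv : u ≠ v) (hx : x ∈ torus Γ u v) : y ∈ Sol x ↔
      (∃ a : OnePoint F, (ratPt k a = u ∨ ratPt k a = v) ∧ y • ratPt k a = ratPt k a) ∨
        y ∈ pairStab Γ u v := by
  have := L.finite
  have x1 : x ≠ 1 := by rintro rfl; simp at x2
  constructor
  · intro hy
    rcases L.mem_Sol_cases hr hp hF h hy with ⟨a, h1, h2⟩ | ⟨u', v', huv', h1, h2⟩ | h1 | ⟨rfl, ⟨e⟩⟩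
    · exact Or.inl ⟨a, eq_or_eq_of_fixed x1 huv hx.1 hx.2 h1, h2⟩
    · exact Or.inr ((pairStab_eq_of_mem huv huv' x1 hx h1).1 ▸ h2)
    · exact absurd h1.1 x2
    · exfalso
      rcases A4_pow (e ⟨x, Sol.left _ _⟩) with h1 | h1
      · rw [← map_mul, e.map_eq_one_iff] at h1
        exact x2 (congrArg Subtype.val h1)
      · rw [← map_pow, e.map_eq_one_iff] at h1
        have h2 := (L.coprime_card_torus huv).coprime_dvd_left (orderOf_dvd_natCard _ hx)
        rw [orderOf_eq_prime (p := 3) (congrArg Subtype.val h1) x1, hF] at h2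
        exact absurd (h2.coprime_dvd_right (dvd_pow_self 3 hp.ne_zero)) (by norm_num)
  · rintro (⟨a, h1, h2⟩ | h1)
    · exact mem_Sol_of_mem (L.isSolvable_stabilizer a)
        (by rcases h1 with e | e <;> rw [mem_stabilizer_iff, e]; exacts [hx.1, hx.2]) h2
    · exact mem_Sol_of_mem (isSolvable_pairStab huv) (torus_le_pairStab _ _ hx) h1

omit [IsAlgClosed k] in
theorem exists_torus_of_dvd {x : Γ} (h : (orderOf x).Coprime (Nat.card F)) :
    ∃ u v : OnePoint k, u ≠ v ∧ x ∈ torus Γ u v := by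
  have := Fintype.ofFinite F
  obtain ⟨p, hp⟩ := CharP.exists F
  obtain ⟨n, -, hn⟩ := FiniteField.card F p
  rw [Nat.card_eq_fintype_card, hn] at h
  exact L.exists_mem_torus p (h.coprime_dvd_right (dvd_pow_self p n.ne_zero))

theorem ncard_Sol_nonsplit (hr : φ.range = psl F) {r p : ℕ} (hp : p.Prime)
    (hF : Nat.card F = r ^ p) (h : r = 2 ∨ (r = 3 ∧ Odd p)) {x : Γ} (x2 : x * x ≠ 1)
    (hx : orderOf x ∣ Nat.card F + 1) : (Sol x).ncard * φ.range.index = 2 * (Nat.card F + 1) := by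
  have := L.finite
  have x1 : x ≠ 1 := by rintro rfl; simp at x2
  obtain ⟨u, v, huv, h1⟩ := L.exists_torus_of_dvd (x := x) (Nat.Coprime.coprime_dvd_left hx (by simp))
  obtain ⟨⟨t, t1, t2⟩, ⟨-, h2⟩ | ⟨hu, hv, h2⟩⟩ :=
    L.torus_cases huv ((ne_bot_iff_exists_ne_one).2 ⟨⟨x, h1⟩, by simpa using x1⟩)
  · have h3 : orderOf x ∣ Nat.card F - 1 := h2 ▸ (orderOf_dvd_natCard _ h1).mul_right _
    have h4 := Nat.dvd_sub hx h3
    rw [show Nat.card F + 1 - (Nat.card F - 1) = 2 by have := Nat.card_pos (α := F); omega,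
      orderOf_dvd_iff_pow_eq_one, pow_two] at h4
    exact absurd h4 x2
  rw [show Sol x = pairStab Γ u v from Set.ext fun y =>
    (L.mem_Sol_iff_of_torus hr hp hF h x2 huv h1).trans (or_iff_right ?_), ncard_subgroup,
    card_pairStab huv t1 t2, mul_assoc, h2]
  rintro ⟨a, e | e, -⟩
  exacts [hu ⟨a, e⟩, hv ⟨a, e⟩]

theorem ncard_Sol_split (hr : φ.range = psl F) {r p : ℕ} (hp : p.Prime)
    (hF : Nat.card F = r ^ p) (h : r = 2 ∨ (r = 3 ∧ Odd p)) {x : Γ} (x2 : x * x ≠ 1)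
    (hx : orderOf x ∣ Nat.card F - 1) :
    (Sol x).ncard * φ.range.index = 2 * (Nat.card F * (Nat.card F - 1)) := by
  have := L.finite
  have x1 : x ≠ 1 := by rintro rfl; simp at x2
  have q0 := Nat.card_pos (α := F)
  obtain ⟨u, v, huv, h1⟩ := L.exists_torus_of_dvd (x := x) (Nat.Coprime.coprime_dvd_left hx
    ((Nat.coprime_self_sub_left q0).2 (by simp)))
  obtain ⟨⟨t, t1, t2⟩, ⟨⟨a, b, hab, rfl, rfl⟩, -⟩ | ⟨-, -, h2⟩⟩ :=
    L.torus_cases huv ((ne_bot_iff_exists_ne_one).2 ⟨⟨x, h1⟩, by simpa using x1⟩)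
  swap
  · have h3 : orderOf x ∣ Nat.card F + 1 := h2 ▸ (orderOf_dvd_natCard _ h1).mul_right _
    have h4 := Nat.dvd_sub h3 hx
    rw [show Nat.card F + 1 - (Nat.card F - 1) = 2 by omega,
      orderOf_dvd_iff_pow_eq_one, pow_two] at h4
    exact absurd h4 x2
  have h3 : Sol x = ((stabilizer Γ (ratPt k a) : Set Γ) ∪ stabilizer Γ (ratPt k b)) ∪
      ((pairStab Γ (ratPt k a) (ratPt k b) : Set Γ) \ torus Γ (ratPt k a) (ratPt k b)) := by
    ext y
    rw [L.mem_Sol_iff_of_torus hr hp hF h x2 huv h1]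
    simp only [Set.mem_union, Set.mem_diff, SetLike.mem_coe, mem_stabilizer_iff]
    constructor
    · rintro (⟨c, e | e, h4⟩ | h4)
      · exact Or.inl (Or.inl (e ▸ h4))
      · exact Or.inl (Or.inr (e ▸ h4))
      · by_cases e : y ∈ torus Γ (ratPt k a) (ratPt k b)
        exacts [Or.inl (Or.inl e.1), Or.inr ⟨h4, e⟩]
    · rintro ((h4 | h4) | h4)
      exacts [Or.inl ⟨a, Or.inl rfl, h4⟩, Or.inl ⟨b, Or.inr rfl, h4⟩, Or.inr h4.1]
  have h4 := Set.ncard_union_add_ncard_inter (stabilizer Γ (ratPt k a) : Set Γ)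
    (stabilizer Γ (ratPt k b) : Set Γ)
  have h5 := Set.ncard_diff_add_ncard_of_subset
    (show (torus Γ (ratPt k a) (ratPt k b) : Set Γ) ⊆ pairStab Γ _ _ from torus_le_pairStab _ _)
  rw [show (stabilizer Γ (ratPt k a) : Set Γ) ∩ stabilizer Γ (ratPt k b) =
    torus Γ (ratPt k a) (ratPt k b) from rfl] at h4
  simp only [ncard_subgroup] at h4 h5
  rw [card_pairStab huv t1 t2] at h5
  rw [h3, Set.ncard_union_eq, two_mul, ← L.card_stabilizer_ratPt a, ← add_mul]
  · rw [Nat.eq_of_mul_eq_mul_right L.index_pos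
      ((L.card_stabilizer_ratPt b).trans (L.card_stabilizer_ratPt a).symm)] at h4
    congr 1; omega
  · rw [Set.disjoint_left]
    rintro y (h6 | h6) ⟨h7 | h7, h8⟩
    exacts [h8 h7, huv (h6.symm.trans h7.1), h8 h7, huv (h7.2.symm.trans h6)]

theorem ncard_Sol_invol_two (hr : φ.range = psl F) {p : ℕ} (hp : p.Prime)
    (hF : Nat.card F = 2 ^ p) {x : Γ} (x1 : x ≠ 1) (x2 : x * x = 1) :
    (Sol x).ncard = 3 * (Nat.card F * (Nat.card F - 1)) := by
  have := L.finite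
  have := Fintype.ofFinite F
  have : CharP F 2 := charP_of_card_eq_prime_pow (by rwa [← Nat.card_eq_fintype_card])
  have hi : φ.range.index = 1 := by rw [hr, psl_eq_top (CharP.cast_eq_zero F 2), index_top]
  obtain ⟨a, ha⟩ := L.exists_mem_unip 2 (g := x) (n := 1) (by simpa [pow_two] using x2)
  have ha' := (mem_unip.1 ha).resolve_left x1
  have h1 := L.ncard_invol_move a
  have h2 := L.card_stabilizer_ratPt a
  rw [hi, mul_one] at h1 h2
  set W := {y : Γ | y * y = 1 ∧ y • ratPt k a ≠ ratPt k a}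
  have h3 : ∀ y, (x * y) • ratPt k a = ratPt k a ↔ y • ratPt k a = ratPt k a := fun y => by
    rw [mul_smul, smul_eq_iff_eq_inv_smul, ha'.inv.1]
  have h4 : Sol x = ((stabilizer Γ (ratPt k a) : Set Γ) ∪ W) ∪ {y | x * y ∈ W} := by
    ext y
    simp only [Set.mem_union, SetLike.mem_coe, mem_stabilizer_iff, W, Set.mem_setOf_eq, ne_eq, h3]
    constructor
    · intro hy
      rcases L.mem_Sol_cases hr hp hF (Or.inl rfl) hy with ⟨b, h5, h6⟩ | ⟨u, v, huv, h5, -⟩ | h5 | h5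
      · exact Or.inl (Or.inl (ha'.2 _ h5 ▸ h6))
      · exact absurd ((ha'.2 _ h5.1).trans (ha'.2 _ h5.2).symm) huv
      · tauto
      · omega
    · rintro ((h5 | h5) | h5)
      · exact mem_Sol_of_mem (L.isSolvable_stabilizer a) ha'.1 h5
      · exact L.mem_Sol_of_invol x2 h5.1
      · exact mem_Sol_of_mul (L.mem_Sol_of_invol x2 h5.1)
  rw [h4, Set.ncard_union_eq, Set.ncard_union_eq, ncard_mul_preimage, ncard_subgroup, h1, h2]
  · ring
  · exact Set.disjoint_left.2 fun y h5 h6 => h6.2 h5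
  · rw [Set.disjoint_left]
    rintro y (h5 | h5) h6
    · exact h6.2 ((h3 y).2 h5)
    · refine h5.2 (unip_le_stabilizer _ (mem_unip_of_commute ha' ?_))
      have h7 := h6.1
      rw [mul_eq_one_iff_eq_inv, _root_.mul_inv_rev, inv_eq_of_mul_eq_one_right x2,
        inv_eq_of_mul_eq_one_right h5.1] at h7
      exact h7.symm

omit [IsAlgClosed k] in
theorem ncard_tri_swap (hr : φ.range = psl F) {x : Γ} {a b : OnePoint F} (hab : a ≠ b)
    (hx : IsUnip x (ratPt k a)) : {t : Γ | (t • ratPt k a = ratPt k b ∧ t • ratPt k b = ratPt k a) ∧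
      (t * x) ^ 3 = 1}.ncard = 1 := by
  obtain ⟨g, g1, g2⟩ := L.exists_smul_two a b hab
  rw [← g1, isUnip_conj_iff, L.isUnip_iff, isUnip_infty_iff] at hx
  obtain ⟨β, β0, hβ⟩ := hx
  obtain ⟨t₀, ht₀⟩ : pgl 0 (-β ^ 2) 1 0 (by simpa using β0) ∈ φ.range :=
    hr ▸ pgl_mem_psl.2 ⟨β, by ring⟩
  rw [← ncard_conj_preimage g, Set.ncard_eq_one]
  refine ⟨t₀, Set.ext fun t => ?_⟩
  have e : g * t * g⁻¹ * x = g * (t * (g⁻¹ * x * g)) * g⁻¹ := by group
  simp only [Set.mem_setOf_eq, ← g1, ← g2, mul_smul, inv_smul_smul, smul_left_cancel_iff, e,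
    conj_pow, conj_eq_one_iff, Set.mem_singleton_iff]
  rw [L.smul_eq, L.smul_eq, smul_swap_iff, ← map_eq_one_iff φ L.inj, map_pow, map_mul, hβ]
  constructor
  · rintro ⟨⟨s, s0, hs⟩, h⟩
    rw [hs, swap_mul_aff_pow_three s0] at h
    subst h
    exact L.inj (hs.trans ht₀.symm)
  · rintro rfl
    exact ⟨⟨_, by simpa using β0, ht₀⟩, by rw [ht₀, swap_mul_aff_pow_three (by simpa using β0)]⟩

omit [IsAlgClosed k] in
theorem ncard_tri_unip (hr : φ.range = psl F) (h2 : (2 : F) ≠ 0) {t : Γ} {a b : OnePoint F}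
    (hab : a ≠ b) (h3 : t • ratPt k a = ratPt k b) (h4 : t • ratPt k b = ratPt k a) :
    {y : Γ | IsUnip y (ratPt k a) ∧ (t * y) ^ 3 = 1}.ncard = 2 := by
  obtain ⟨g, g1, g2⟩ := L.exists_smul_two a b hab
  obtain ⟨s, s0, hs⟩ := (smul_swap_iff (k := k) (g := φ (g⁻¹ * t * g))).1 (by
    rw [← L.smul_eq, ← L.smul_eq, mul_smul, mul_smul, mul_smul, mul_smul, g1, g2, h3, h4,
      inv_smul_eq_iff, inv_smul_eq_iff]
    exact ⟨g2.symm, g1.symm⟩)
  have h5 : φ (g⁻¹ * t * g) ∈ φ.range := ⟨_, rfl⟩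
  rw [hr, hs, pgl_mem_psl] at h5
  obtain ⟨δ, hδ⟩ := h5
  have δ0 : δ ≠ 0 := by rintro rfl; simp [s0] at hδ
  obtain ⟨y₁, h₁⟩ := L.exists_eq_aff_one δ
  obtain ⟨y₂, h₂⟩ := L.exists_eq_aff_one (-δ)
  rw [← ncard_conj_preimage g, Set.ncard_eq_two]
  refine ⟨y₁, y₂, fun e => ?_, Set.ext fun y => ?_⟩
  · rw [e, h₂, aff_eq_aff_iff] at h₁
    exact mul_ne_zero h2 δ0 (by linear_combination -h₁.2)
  have e : t * (g * y * g⁻¹) = g * (g⁻¹ * t * g * y) * g⁻¹ := by group
  have e' : g⁻¹ * (g * y * g⁻¹) * g = y := by group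
  simp only [Set.mem_setOf_eq, ← g1, isUnip_conj_iff, e, e',
    conj_pow, conj_eq_one_iff, Set.mem_singleton_iff, Set.mem_insert_iff]
  rw [L.isUnip_iff, isUnip_infty_iff, ← map_eq_one_iff φ L.inj, map_pow, map_mul, hs]
  constructor
  · rintro ⟨⟨β, -, hβ⟩, h⟩
    rw [hβ, swap_mul_aff_pow_three s0] at h
    rcases mul_self_eq_mul_self_iff.1 (show β * β = δ * δ by linear_combination h + hδ) with e | e
    · exact Or.inl (L.inj (by rw [hβ, h₁, e]))
    · exact Or.inr (L.inj (by rw [hβ, h₂, e]))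
  · rintro (rfl | rfl)
    · exact ⟨⟨δ, δ0, h₁⟩, by rw [h₁, swap_mul_aff_pow_three s0]; linear_combination -hδ⟩
    · exact ⟨⟨-δ, neg_ne_zero.2 δ0, h₂⟩, by
        rw [h₂, swap_mul_aff_pow_three s0]; linear_combination -hδ⟩

end IsL2

end CF.Classical
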