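/-
The Jacobi–Trudi identity and the orthonormality of the unipotent characters of `GL_n`.
-/
import Cfsg.Agent.Classical.UniA

set_option autoImplicit false

namespace CF.Classical

open Finset Cfsg Matrix

variable {n : ℕ} {R : Type*} [CommRing R]

/-- Complete homogeneous symmetric functions. -/
noncomputable def hsym (y : Fin n → R) (m : ℕ) : R :=
  PowerSeries.coeff m (∏ k, PowerSeries.mk fun a => y k ^ a)

theorem hsym_eq (y : Fin n → R) (m : ℕ) : hsym y m = ∑ α ∈ piAntidiag univ m, ∏ k, y k ^ α k := by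
  rw [hsym, PowerSeries.coeff_prod]
  exact sum_equiv Finsupp.equivFunOnFinite (by simp) (by simp)

theorem exists_pow_eq_sum_hsym (y : Fin n → R) : ∃ M : Matrix (Fin n) (Fin n) R, ∀ k a,
    y k ^ a = ∑ j : Fin n, (if j.1 ≤ a then hsym y (a - j) else 0) * M j k := by
  let E : Fin n → Polynomial R := fun k => ∏ l ∈ univ.erase k, (1 - Polynomial.C (y l) * Polynomial.X)
  refine ⟨fun j k => (E k).coeff j, fun k a => ?_⟩
  have h1 : ∀ l, (PowerSeries.mk fun a => y l ^ a) * (1 - PowerSeries.C (y l) * PowerSeries.X) = 1 :=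
    fun l => by
      have := congrArg (PowerSeries.rescale (y l)) (PowerSeries.mk_one_mul_one_sub_eq_one R)
      simpa [PowerSeries.rescale_mk, PowerSeries.rescale_X] using this
  have h2 : (E k : PowerSeries R) * (∏ k, PowerSeries.mk fun a => y k ^ a) =
      PowerSeries.mk fun a => y k ^ a := by
    rw [← mul_prod_erase _ _ (mem_univ k), mul_left_comm, ← Polynomial.coeToPowerSeries.ringHom_apply,
      map_prod, ← prod_mul_distrib, prod_eq_one fun l _ => ?_, mul_one]
    rw [mul_comm, map_sub, map_mul, map_one]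
    simpa using h1 l
  have h3 : (E k).natDegree < n := by
    refine ((Polynomial.natDegree_prod_le _ _).trans (sum_le_card_nsmul _ _ 1 fun l _ => by
      compute_degree)).trans_lt ?_
    have := k.pos
    simp; omega
  have := congrArg (PowerSeries.coeff a) h2
  rw [PowerSeries.coeff_mk, PowerSeries.coeff_mul, Nat.sum_antidiagonal_eq_sum_range_succ_mk] at this
  rw [← this, Fin.sum_univ_eq_sum_range (fun j => (if j ≤ a then hsym y (a - j) else 0) * (E k).coeff j)]
  simp only [ite_mul, zero_mul, ← sum_filter, Polynomial.coeff_coe]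
  refine (sum_subset_zero_on_sdiff (fun j hj => ?_) (fun j hj => ?_) fun j _ => mul_comm _ _).symm
  · simp at hj ⊢; omega
  · rw [Polynomial.coeff_eq_zero_of_natDegree_lt (by simp at hj; omega), zero_mul]

theorem det_ite_eq (l : Fin n → ℕ) (f : Fin n → ℕ → R) :
    (of fun i j : Fin n => if j.1 ≤ l i then f i j else 0).det = ∑ κ : Equiv.Perm (Fin n),
      if ∀ i, (κ i).1 ≤ l i then (Equiv.Perm.sign κ : ℤ) * ∏ i, f i (κ i) else 0 := by
  rw [← det_transpose, det_apply']
  simp [prod_ite_zero]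

theorem jacobi_trudi (y : Fin n → R) (l : Fin n → ℕ) : (of fun i k => y k ^ l i).det =
    (of fun i k : Fin n => y k ^ i.1).det * ∑ κ : Equiv.Perm (Fin n),
      if ∀ i, (κ i).1 ≤ l i then (Equiv.Perm.sign κ : ℤ) * ∏ i, hsym y (l i - κ i) else 0 := by
  obtain ⟨M, hM⟩ := exists_pow_eq_sum_hsym y
  have h1 : ∀ l : Fin n → ℕ, (of fun i k => y k ^ l i) =
      (of fun i j : Fin n => if j.1 ≤ l i then hsym y (l i - j) else 0) * M := fun l => by
    ext i k
    exact hM k (l i)
  rw [h1, h1, det_mul, det_mul, det_ite_eq l fun i j => hsym y (l i - j), mul_comm,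
    det_of_isLowerTriangular (of fun i j : Fin n => if j.1 ≤ i then hsym y (i - j) else 0)
      fun i j h => if_neg (not_le.2 h)]
  simp [hsym_eq]

open MvPolynomial

/-- The coefficient of a monomial. -/
noncomputable def cfM (α : Fin n → ℕ) : MvPolynomial (Fin n) R →ₗ[R] R :=
  lcoeff R (Finsupp.equivFunOnFinite.symm α)

theorem prod_X_eq (β : Fin n → ℕ) : ∏ k, (X k : MvPolynomial (Fin n) R) ^ β k =
    monomial (Finsupp.equivFunOnFinite.symm β) 1 := by
  simp [monomial_eq, Finsupp.prod_fintype]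

theorem cfM_mul (α β : Fin n → ℕ) (p : MvPolynomial (Fin n) R) :
    cfM α ((∏ k, X k ^ β k) * p) = if ∀ i, β i ≤ α i then cfM (fun i => α i - β i) p else 0 := by
  rw [prod_X_eq, cfM, lcoeff_apply, coeff_monomial_mul', one_mul]
  exact if_congr Iff.rfl (congrArg (coeff · p) (Finsupp.ext fun _ => rfl)) rfl

theorem cfM_prod (α β : Fin n → ℕ) :
    cfM α (∏ k, (X k : MvPolynomial (Fin n) R) ^ β k) = if β = α then 1 else 0 := by
  simp [prod_X_eq, cfM, coeff_monomial]

theorem cfM_hsym (μ ν : Fin n → ℕ) :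
    cfM ν (∏ a, hsym (X : _ → MvPolynomial (Fin n) R) (μ a)) = #(sumMat μ ν) := by
  simp only [hsym_eq]
  rw [prod_univ_sum, map_sum, sumMat, card_filter, Nat.cast_sum]
  refine sum_congr rfl fun A _ => ?_
  rw [prod_comm]
  simp only [prod_pow_eq_pow_sum, cfM_prod, Nat.cast_ite, Nat.cast_one, Nat.cast_zero]
  exact if_congr (by simp [funext_iff]) rfl rfl

theorem sum_sign_sumMat {l l' : Fin n → ℕ} (h : StrictMono l) (h' : StrictMono l') :
    ∑ κ' : Equiv.Perm (Fin n), (if ∀ i, (κ' i).1 ≤ l' i then (Equiv.Perm.sign κ' : ℤ) *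
      ∑ κ : Equiv.Perm (Fin n), (if ∀ i, (κ i).1 ≤ l i then (Equiv.Perm.sign κ : ℤ) *
        (#(sumMat (fun i => l i - κ i) fun i => l' i - κ' i) : R) else 0) else 0) =
      if l = l' then 1 else 0 := by
  have := congrArg (cfM (R := R) l') (jacobi_trudi X l)
  simp only [det_apply', of_apply, map_sum, sum_mul, mul_assoc, ← zsmul_eq_mul, map_zsmul, cfM_mul,
    cfM_prod, smul_mul_assoc, apply_ite (cfM _), map_zero, cfM_hsym] at this
  simp only [← zsmul_eq_mul, smul_ite, smul_zero] at this ⊢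
  rw [← this, sum_eq_single 1 (fun σ _ h1 => if_neg fun e => h1 ?_) (by simp)]
  · simp
  · have h2 : StrictMono σ := fun i j hij => h.lt_iff_lt.1 (by
      simpa [← e] using h' hij)
    exact Equiv.ext fun i => h2.apply_eq

variable {F : Type*} [Field F]

theorem sum_sub_perm {ν : Fin n → ℕ} (hν : ∑ i, ν i = n) {κ : Equiv.Perm (Fin n)}
    (h : ∀ i, (κ i).1 ≤ ν i + i) : ∑ i, (ν i + i - κ i) = n := by
  rw [sum_tsub_distrib _ fun i _ => h i, sum_add_distrib, hν, Equiv.sum_comp κ Fin.val,
    Nat.add_sub_cancel]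

theorem unipotent_eq (ν : Fin n → ℕ) : unipotentCharacterGL n F ν = ∑ κ : Equiv.Perm (Fin n),
    if ∀ i, (κ i).1 ≤ ν i + i then (Equiv.Perm.sign κ : ℤ) •
      fixedPointCharacter (parabolicGL n F fun i => ν i + i - κ i) else 0 := by
  ext g
  simp [unipotentCharacterGL, ite_apply]

theorem inner_unipotent [Fintype (GL (Fin n) F)] {ν ν' : Fin n → ℕ} (h : Monotone ν)
    (hν : ∑ i, ν i = n) (h' : Monotone ν') (hν' : ∑ i, ν' i = n) :
    classInner (unipotentCharacterGL n F ν) (unipotentCharacterGL n F ν') =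
      if ν = ν' then 1 else 0 := by
  rw [← if_congr (P := (fun i => ν i + i) = fun i => ν' i + i) (by simp [funext_iff]) rfl rfl,
    ← sum_sign_sumMat (h.add_strictMono Fin.val_strictMono) (h'.add_strictMono Fin.val_strictMono),
    unipotent_eq, unipotent_eq, Char.inner_sum_right]
  refine sum_congr rfl fun κ' _ => ?_
  split_ifs with h1
  · rw [Char.inner_zsmul_right, Char.inner_sum_left]
    refine congrArg _ (sum_congr rfl fun κ _ => ?_)
    split_ifs with h2
    · rw [Char.inner_zsmul_left, inner_parabolic (sum_sub_perm hν h2) (sum_sub_perm hν' h1)]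
    · exact Char.inner_zero_left _
  · exact Char.inner_zero_right _

end CF.Classical
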