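/-
Orders of parabolic subgroups of `GL_n(q)` and degrees of the unipotent characters.
-/
import Cfsg.Agent.Classical.UniB

set_option autoImplicit false

namespace CF.Classical

open Finset Cfsg Matrix

variable {F : Type*} [Field F] [Fintype F] {n : ℕ} {μ : Fin n → ℕ}

theorem card_linInd_mem {V : Type*} [AddCommGroup V] [Module F V] [Finite V] {k : ℕ}
    (U : Fin k → Submodule F V) (hU : Monotone U) :
    Nat.card {v : Fin k → V // LinearIndependent F v ∧ ∀ j, v j ∈ U j} =
      ∏ j, (Nat.card (U j) - Fintype.card F ^ j.1) := by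
  induction k with
  | zero => simp [linearIndependent_empty_type]
  | succ k ih =>
    have e : {v : Fin (k + 1) → V // LinearIndependent F v ∧ ∀ j, v j ∈ U j} ≃
        Σ s : {v : Fin k → V // LinearIndependent F v ∧ ∀ j, v j ∈ U j.castSucc},
          ((U (Fin.last k) : Set V) \ Submodule.span F (Set.range s.1) : Set V) :=
      { toFun s := ⟨⟨Fin.init s.1, (linearIndependent_finSucc'.1 s.2.1).1, fun j => s.2.2 _⟩,
          s.1 (Fin.last k), s.2.2 _, (linearIndependent_finSucc'.1 s.2.1).2⟩
        invFun s := ⟨Fin.snoc s.1.1 s.2.1, linearIndependent_finSnoc.2 ⟨s.1.2.1, s.2.2.2⟩,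
          Fin.lastCases (by simpa using s.2.2.1) (by simpa using s.1.2.2)⟩
        left_inv s := by simp
        right_inv := fun ⟨s, x⟩ => Sigma.subtype_ext (by simp) (by simp) }
    have := Fintype.ofFinite {v : Fin k → V // LinearIndependent F v ∧ ∀ j, v j ∈ U j.castSucc}
    rw [Nat.card_congr e, Nat.card_sigma, Fin.prod_univ_castSucc,
      sum_congr rfl (g := fun _ => Nat.card (U (Fin.last k)) - Fintype.card F ^ k) fun s _ => ?_,
      sum_const, card_univ, ← Nat.card_eq_fintype_card, 
      ih (fun j => U j.castSucc) (hU.comp Fin.strictMono_castSucc.monotone)]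
    · rfl
    rw [Nat.card_coe_set_eq, Set.ncard_diff (Submodule.span_le.2 (by
      rintro _ ⟨j, rfl⟩; exact hU (Fin.le_last _) (s.2.2 j))), ← Nat.card_coe_set_eq,
      ← Nat.card_coe_set_eq, SetLike.coe_sort_coe, SetLike.coe_sort_coe,
      Module.natCard_eq_pow_finrank (K := F) (V := Submodule.span _ _), finrank_span_eq_card s.2.1,
      Nat.card_eq_fintype_card (α := F), Fintype.card_fin]

/-- The `q`-factorial. -/
def qFac (q r : ℕ) : ℕ := ∏ j ∈ range r, ∑ l ∈ range (j + 1), q ^ l

theorem prod_pow_sub_one {q : ℕ} (hq : 1 ≤ q) (r : ℕ) :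
    ∏ t ∈ range r, (q ^ (t + 1) - 1) = qFac q r * (q - 1) ^ r := by
  rw [qFac, ← card_range r, ← prod_const, card_range, ← prod_mul_distrib]
  exact prod_congr rfl fun t _ => (geom_sum_mul_of_one_le hq _).symm

theorem card_parabolicGL (hμ : ∑ i, μ i = n) : Nat.card (parabolicGL n F μ) =
    (∏ j : Fin n, Fintype.card F ^ j.1) * (Fintype.card F - 1) ^ n *
      ∏ a, qFac (Fintype.card F) (μ a) := by
  classical
  let U : Fin n → Submodule F (Fin n → F) := fun j =>
    Submodule.pi {i | compLabel μ j < compLabel μ i} fun _ => ⊥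
  have h1 : ∀ j, Nat.card (U j) = Fintype.card F ^ psum μ (lab hμ j) := fun j => by
    refine (Nat.card_congr (Equiv.subtypePiEquivPi (β := fun _ : Fin n => F)
      (p := fun i x => compLabel μ j < compLabel μ i → x = 0))).trans ?_
    rw [Nat.card_pi,
      ← min_eq_right (psum_le hμ (lab hμ j)), ← Fin.card_filter_val_lt, ← prod_const, prod_filter]
    refine prod_congr rfl fun i _ => ?_
    have := lt_compLabel (μ := μ) (a := lab hμ j) (i := i)
    split_ifs with h
    · simp [show ¬ compLabel μ j < compLabel μ i from mt this.1 (not_le.2 h)]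
    · simp [show compLabel μ j < compLabel μ i from this.2 (not_lt.1 h)]
  rw [Nat.card_congr (((equiv_GL_linearindependent n).subtypeEquiv
    (q := fun v : {s : Fin n → Fin n → F // LinearIndependent F s} => ∀ j, v.1 j ∈ U j)
    (p := (· ∈ parabolicGL n F μ)) fun g => ⟨fun h j i => @h i j, fun h i j => h j i⟩).trans
      (Equiv.subtypeSubtypeEquivSubtypeInter _ fun v : Fin n → Fin n → F => ∀ j, v j ∈ U j)),
    card_linInd_mem U fun i j h v hv k hk => hv k ((compLabel_mono μ h).trans_lt hk)]
  have h2 : ∀ j : Fin n, Nat.card (U j) - Fintype.card F ^ j.1 =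
      Fintype.card F ^ j.1 * (Fintype.card F ^ (psum μ (lab hμ j) - j) - 1) := fun j => by
    rw [h1, Nat.mul_sub, ← pow_add, Nat.add_sub_cancel' (compLabel_eq_iff.1 rfl).2.le, mul_one]
  simp only [h2, prod_mul_distrib]
  rw [mul_assoc, mul_comm (_ ^ n), ← congrArg ((Fintype.card F - 1) ^ ·) hμ, ← prod_pow_eq_pow_sum,
    ← prod_mul_distrib (f := fun a => qFac _ (μ a))]
  refine congrArg _ ((prod_fiberwise univ (lab hμ) _).symm.trans (prod_congr rfl fun a _ => ?_))
  rw [← prod_pow_sub_one Fintype.card_pos, ← prod_fiber_compLabel hμ a (Fintype.card F ^ · - 1)]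
  exact prod_congr (by simp [lab, Fin.ext_iff]) fun j hj => by
    rw [show lab hμ j = a from Fin.ext (mem_filter.1 hj).2]

theorem index_parabolicGL (hμ : ∑ i, μ i = n) :
    (parabolicGL n F μ).index * ∏ a, qFac (Fintype.card F) (μ a) = qFac (Fintype.card F) n := by
  have h1 := (parabolicGL n F μ).index_mul_card
  have h2 : ∀ j : Fin n, Fintype.card F ^ n - Fintype.card F ^ j.1 =
      Fintype.card F ^ j.1 * (Fintype.card F ^ (n - 1 - j + 1) - 1) := fun j => by
    rw [Nat.mul_sub, ← pow_add, mul_one, show j + (n - 1 - j + 1) = n by omega]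
  rw [card_parabolicGL hμ, card_GL_field] at h1
  simp only [h2, prod_mul_distrib] at h1
  rw [Fin.prod_univ_eq_prod_range (fun j => Fintype.card F ^ (n - 1 - j + 1) - 1),
    prod_range_reflect (fun j => Fintype.card F ^ (j + 1) - 1), prod_pow_sub_one Fintype.card_pos] at h1
  have h3 : 1 < Fintype.card F := Fintype.one_lt_card
  refine Nat.eq_of_mul_eq_mul_left (mul_pos (prod_pos (s := univ) fun (j : Fin n) _ =>
    pow_pos (by omega : 0 < Fintype.card F) j.1) (pow_pos (by omega : 0 < Fintype.card F - 1) n)) ?_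
  linear_combination h1

theorem sum_choose_two (n : ℕ) : ∑ j : Fin n, ∑ t ∈ range j, t = n * (n - 1) * (n - 2) / 6 := by
  have : 6 * ∑ j : Fin n, ∑ t ∈ range j, t = n * (n - 1) * (n - 2) := by
    induction n with
    | zero => rfl
    | succ n ih =>
      have := sum_range_id_mul_two n
      simp only [Fin.sum_univ_castSucc, Fin.val_castSucc, Fin.val_last, mul_add, ih]
      rcases n with _ | _ | n
      · rfl
      · rfl
      · simp only [Nat.add_sub_cancel, Nat.add_succ_sub_one] at this ⊢
        rw [show n + 1 + 1 - 2 = n by omega, show n + 1 + 1 + 1 - 2 = n + 1 by omega]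
        linear_combination 3 * this
  omega

theorem qFac_mul {K : Type*} [CommRing K] (q : ℕ) {a j : ℕ} (h : j ≤ a) :
    (qFac q a : K) * q ^ ∑ t ∈ range j, t = qFac q (a - j) * ∏ t ∈ range j,
      (((∑ l ∈ range a, q ^ l : ℕ) : K) - ((∑ l ∈ range t, q ^ l : ℕ) : K)) := by
  induction j with
  | zero => simp
  | succ j ih =>
    obtain ⟨m, rfl⟩ : ∃ m, a = j + (m + 1) := ⟨a - j - 1, by omega⟩
    rw [sum_range_succ, pow_add, ← mul_assoc, ih (by omega), prod_range_succ, Nat.add_sub_cancel_left,
      show j + (m + 1) - (j + 1) = m by omega, qFac, prod_range_succ, sum_range_add _ j]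
    simp only [pow_add, ← mul_sum, qFac]
    push_cast
    ring

theorem qFac_pos (q r : ℕ) : 0 < qFac q r :=
  prod_pos fun j _ => by rw [sum_range_succ']; simp

theorem degree_formula (K : Type*) [Field K] [CharZero K] {ν : Fin n → ℕ} (hν : ∑ i, ν i = n) :
    (∑ κ : Equiv.Perm (Fin n), if ∀ i, (κ i).1 ≤ ν i + i then ((Equiv.Perm.sign κ : ℤ) : K) *
      (parabolicGL n F fun i => ν i + i - κ i).index else 0) *
      (Fintype.card F : K) ^ (n * (n - 1) * (n - 2) / 6) * ∏ i, (qFac (Fintype.card F) (ν i + i) : K) =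
    qFac (Fintype.card F) n * ∏ i : Fin n, ∏ j ∈ Ioi i,
      (((∑ l ∈ range (ν j + j), Fintype.card F ^ l : ℕ) : K) -
        ((∑ l ∈ range (ν i + i), Fintype.card F ^ l : ℕ) : K)) := by
  set q := Fintype.card F
  let Q : ℕ → K := fun a => ((∑ l ∈ range a, q ^ l : ℕ) : K)
  have h1 := det_eval_matrixOfPolynomials_eq_det_vandermonde (fun i => Q (ν i + i))
    (fun j : Fin n => ∏ t ∈ range j, (Polynomial.X - Polynomial.C (Q t)))
    (fun j => by simp [Polynomial.natDegree_prod_of_monic, Polynomial.monic_X_sub_C])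
    fun j => Polynomial.monic_prod_of_monic _ _ fun _ _ => Polynomial.monic_X_sub_C _
  have h2 : (of fun i j : Fin n => (∏ t ∈ range j, (Polynomial.X - Polynomial.C (Q t))).eval
      (Q (ν i + i))) = of fun i j : Fin n =>
        if j.1 ≤ ν i + i then ∏ t ∈ range j, (Q (ν i + i) - Q t) else 0 := by
    ext i j
    simp only [of_apply, Polynomial.eval_prod, Polynomial.eval_sub, Polynomial.eval_X, Polynomial.eval_C]
    split_ifs with h
    · rfl
    · exact prod_eq_zero (mem_range.2 (not_le.1 h)) (sub_self _)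
  rw [h2, det_vandermonde, det_ite_eq _ fun i j => ∏ t ∈ range j, (Q (ν i + i) - Q t)] at h1
  rw [h1, mul_assoc, sum_mul, mul_sum]
  refine sum_congr rfl fun κ _ => ?_
  split_ifs with h
  · have h3 := congrArg (Nat.cast : ℕ → K) (index_parabolicGL (F := F) (sum_sub_perm hν h))
    rw [← h3, ← sum_choose_two, ← Equiv.sum_comp κ, ← prod_pow_eq_pow_sum, ← prod_mul_distrib,
      prod_congr rfl fun i _ => (mul_comm _ _).trans (qFac_mul q (h i)), prod_mul_distrib, Nat.cast_mul,
      Nat.cast_prod]
    ring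
  · simp

theorem unipotent_one (ν : Fin n → ℕ) : unipotentCharacterGL n F ν 1 =
    ∑ κ : Equiv.Perm (Fin n), if ∀ i, (κ i).1 ≤ ν i + i then ((Equiv.Perm.sign κ : ℤ) : ℂ) *
      (parabolicGL n F fun i => ν i + i - κ i).index else 0 := by
  simp [unipotentCharacterGL, fixedPointCharacter, Subgroup.index]

theorem unipotent_one_pos {ν : Fin n → ℕ} (h : Monotone ν) (hν : ∑ i, ν i = n) :
    0 < (unipotentCharacterGL n F ν 1).re := by
  have h1 := degree_formula (F := F) ℝ hν
  have h2 : (0 : ℝ) < Fintype.card F := Nat.cast_pos.2 Fintype.card_pos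
  rw [mul_assoc] at h1
  have h3 := pos_of_mul_pos_left (h1 ▸ mul_pos (Nat.cast_pos.2 (qFac_pos _ _))
    (prod_pos fun i _ => prod_pos fun j hj => sub_pos.2 (Nat.cast_lt.2 (sum_lt_sum_of_subset
      (range_mono (h.add_strictMono Fin.val_strictMono (mem_Ioi.1 hj)).le) (i := ν i + i)
      (mem_range.2 (h.add_strictMono Fin.val_strictMono (mem_Ioi.1 hj))) (by simp)
      (pow_pos Fintype.card_pos _) fun _ _ _ => Nat.zero_le _))))
    (mul_pos (pow_pos h2 _) (prod_pos fun i _ => Nat.cast_pos.2 (qFac_pos _ _))).le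
  refine h3.trans_eq ?_
  rw [unipotent_one, ← Complex.ofReal_re (∑ _, _)]
  simp [apply_ite]

end CF.Classical
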