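import Cfsg.Agent.Classical.WeilCls

/-! Characterisation of the Weil characters of symplectic groups by the rank one property. -/

set_option autoImplicit false

open Module QuadraticMap CF.Geom

namespace CF.Classical

variable {F W V : Type*} [Field F] [Fintype F] [AddCommGroup W] [Module F W] [AddCommGroup V]
  [Module ℂ V] [FiniteDimensional ℂ V] {B : LinearMap.BilinForm F W}
  {hA : B.IsAlt} {ρ : SpG B →* Module.End ℂ V} {ψ : AddChar F ℂ}

theorem exists_cos (hψ : ψ ≠ 1) :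
    ∃ κ : F → ℂ, ∀ y, ∑ c, κ c * ψ (c * (-1 * y ^ 2)) = ψ (2 * y) + ψ (-(2 * y)) := by
  classical
  obtain ⟨κ, hκ⟩ := exists_fourier ψ hψ fun z =>
    if h : ∃ y, z = -1 * y ^ 2 then ψ (2 * h.choose) + ψ (-(2 * h.choose)) else 0
  refine ⟨κ, fun y => ?_⟩
  have h : ∃ y', -1 * y ^ 2 = -1 * y' ^ 2 := ⟨y, rfl⟩
  rw [hκ, dif_pos h]
  have e := h.choose_spec
  generalize h.choose = y' at e
  rcases sq_eq_sq_iff_eq_or_eq_neg.1 (show y' ^ 2 = y ^ 2 by linear_combination e) with rfl | rfl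
  · rfl
  · simp [add_comm]

theorem exists_gauss (hψ : ψ ≠ 1) (h2 : (2 : F) ≠ 0) : ∃ b : F → F → ℂ, ∀ c y,
    ∑ s, b c s * (ψ (s * (2 * y)) + ψ (-(s * (2 * y)))) = ψ (c * (-1 * y ^ 2)) := by
  have : ∀ c : F, ∃ b : F → ℂ, ∀ y,
      ∑ s, b s * (ψ (s * (2 * y)) + ψ (-(s * (2 * y)))) = ψ (c * (-1 * y ^ 2)) := fun c => by
    obtain ⟨b, hb⟩ := exists_fourier ψ hψ fun z => ψ (c * (-1 * (z / 2) ^ 2)) / 2
    refine ⟨b, fun y => ?_⟩
    simp only [mul_add, Finset.sum_add_distrib, ← mul_neg, hb, neg_div, neg_sq,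
      mul_div_cancel_left₀ _ h2]
    rw [add_halves]
  choose b hb using this
  exact ⟨b, hb⟩

/-- Short root (Eichler) elements of the symplectic group. -/
def spU (hA : B.IsAlt) (u w : W) : SpG B :=
  spTrans hA (u + w) 1 * (spTrans hA u (-1) * spTrans hA w (-1))

omit [Fintype F] in
theorem spU_apply {u w : W} (h : B u w = 0) (x : W) :
    (spU hA u w).1 x = x + B x u • w + B x w • u := by
  simp only [spU, spG_mul_apply, spTrans_apply, map_add, map_smul, LinearMap.add_apply,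
    LinearMap.smul_apply, h, hA.isRefl _ _ h, hA.self_eq_zero, smul_eq_mul]
  module

omit [Fintype F] in
theorem spU_mul {u w w' : W} (h : B u w = 0) (h' : B u w' = 0) :
    spU hA u w * spU hA u w' = spU hA u (w + w') * spTrans hA u (B w' w) := by
  refine spG_ext fun x => ?_
  rw [spG_mul_apply, spG_mul_apply, spU_apply h, spU_apply h', spU_apply (by simp [h, h'])]
  simp only [spTrans_apply, map_add, map_smul, LinearMap.add_apply,
    LinearMap.smul_apply, h, h', hA.isRefl _ _ h', hA.self_eq_zero, smul_eq_mul]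
  module

omit [Fintype F] [FiniteDimensional ℂ V] in
theorem PW.spU {x : V} {u v : W} {α β δ : F} (h : PW hA ρ ψ x u v α β δ) (s : F) :
    ρ (spU hA u (s • v)) x = ψ (s * δ) • x := by
  have h1 := h 1 s 1
  have h2 := h 0 s (-1)
  simp only [one_smul, zero_smul, zero_add] at h1 h2
  rw [CF.Classical.spU, wt_mul ρ h1 (wt_mul ρ (h.left (-1)) h2), ← AddChar.map_add_eq_mul,
    ← AddChar.map_add_eq_mul]
  congr 2; ring

omit [Fintype F] [FiniteDimensional ℂ V] in
theorem zwt_map_spU {u w : W} {z : F} {x : V} (hx : x ∈ zwt hA ρ ψ u z) (h : B u w = 0) :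
    ρ (spU hA u w) x ∈ zwt hA ρ ψ u z := by
  have := zwt_map hx (spU hA u w)
  rwa [spU_apply h, h, hA.self_eq_zero, zero_smul, zero_smul, add_zero, add_zero] at this

namespace RankOne

theorem opZ_eq_spU (h : RankOne hA ρ ψ) (hψ : ψ ≠ 1) (h2 : (2 : F) ≠ 0) {κ : F → ℂ}
    (hκ : ∀ y, ∑ c, κ c * ψ (c * (-1 * y ^ 2)) = ψ (2 * y) + ψ (-(2 * y))) {u w : W}
    (huw : B u w = 0) {y : F} (hy : y ≠ 0) {x : V} (hx : x ∈ zwt hA ρ ψ u (-1 * y ^ 2)) :
    opZ hA ρ κ w x = ρ (spU hA u (y⁻¹ • w)) x + ρ (spU hA u (y⁻¹ • -w)) x := by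
  refine pair_ind (hA := hA) (ρ := ρ) hψ huw (zwt hA ρ ψ u (-1 * y ^ 2)) (fun a b c x hx =>
    zwt_map_perp hx (by simp [huw, hA.self_eq_zero]) c)
    (P := LinearMap.eqLocus (opZ hA ρ κ w) (ρ (spU hA u (y⁻¹ • w)) + ρ (spU hA u (y⁻¹ • -w))))
    (fun α β δ x hx h0 hp => ?_) hx
  have h1 := h u w huw x h0 α β δ hp
  obtain rfl := zwt_unique hψ h0 hp.left hx
  rw [LinearMap.mem_eqLocus, opZ_apply κ hp.right, LinearMap.add_apply, smul_neg, ← neg_smul,
    hp.spU, hp.spU, ← add_smul, show β = -1 * (δ / (2 * y)) ^ 2 by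
      field_simp; linear_combination h1, hκ]
  congr 3 <;> field_simp

theorem opZ_mul [Finite W] (h : RankOne hA ρ ψ) (hB : B.Nondegenerate) (hψ : ψ ≠ 1)
    (h2 : (2 : F) ≠ 0) (h4 : 4 ≤ finrank F W) (hG : ∀ x, (∀ g, ρ g x = x) → x = 0)
    (ht : ∀ w z x, x ≠ 0 → x ∈ zwt hA ρ ψ w z → ∃ y, z = -1 * y ^ 2) {κ : F → ℂ}
    (hκ : ∀ y, ∑ c, κ c * ψ (c * (-1 * y ^ 2)) = ψ (2 * y) + ψ (-(2 * y))) (v w : W) :
    opZ hA ρ κ v * opZ hA ρ κ w =
      ψ (B v w) • opZ hA ρ κ (v + w) + ψ (-B v w) • opZ hA ρ κ (v - w) := by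
  have : FiniteDimensional F W := Module.Finite.of_finite
  rw [← LinearMap.eqLocus_eq_top]
  by_cases hvw : B v w = 0
  · refine eq_top_iff.2 (pair_ind (hA := hA) (ρ := ρ) hψ hvw ⊤ (fun _ _ _ _ _ => trivial)
      fun α β δ x _ h0 hp => ?_)
    have h1 := h v w hvw x h0 α β δ hp
    obtain ⟨a, rfl⟩ := ht _ _ _ h0 hp.left
    obtain ⟨b, rfl⟩ := ht _ _ _ h0 hp.right
    obtain ⟨b', hb, rfl⟩ : ∃ b', b ^ 2 = b' ^ 2 ∧ δ = -2 * a * b' := by
      rcases sq_eq_sq_iff_eq_or_eq_neg.1 (show δ ^ 2 = (2 * a * b) ^ 2 by linear_combination h1)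
        with e | e
      · exact ⟨-b, by ring, by rw [e]; ring⟩
      · exact ⟨b, rfl, by rw [e]; ring⟩
    rw [hb] at hp
    have e1 : x ∈ zwt hA ρ ψ (v + w) (-1 * (a + b') ^ 2) := by
      convert hp 1 1 using 2
      · simp
      · ring
    have e2 : x ∈ zwt hA ρ ψ (v - w) (-1 * (a - b') ^ 2) := by
      convert hp 1 (-1) using 2
      · simp [sub_eq_add_neg]
      · ring
    simp only [LinearMap.mem_eqLocus, Module.End.mul_apply, LinearMap.add_apply,
      LinearMap.smul_apply, opZ_apply κ hp.right, map_smul, opZ_apply κ hp.left, opZ_apply κ e1,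
      opZ_apply κ e2, hκ, hvw, neg_zero, AddChar.map_zero_eq_one, one_smul, smul_smul, ← add_smul]
    congr 1
    simp only [mul_add, add_mul, ← AddChar.map_add_eq_mul]
    ring_nf
  · have key : ∀ u, B u v = 0 → B u w = 0 → ∀ z ≠ 0, zwt hA ρ ψ u z ≤ LinearMap.eqLocus
        (opZ hA ρ κ v * opZ hA ρ κ w)
        (ψ (B v w) • opZ hA ρ κ (v + w) + ψ (-B v w) • opZ hA ρ κ (v - w)) := by
      intro u h1 h3 z hz x hx
      by_cases h0 : x = 0
      · simp [h0]
      obtain ⟨y, rfl⟩ := ht _ _ _ h0 hx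
      have hy : y ≠ 0 := fun e => hz (by simp [e])
      have hm : ∀ a b, B u a = 0 → B u b = 0 → ρ (spU hA u (y⁻¹ • a)) (ρ (spU hA u (y⁻¹ • b)) x) =
          ψ (B a b) • ρ (spU hA u (y⁻¹ • (a + b))) x := fun a b ha hb => by
        rw [← rep_mul_apply, spU_mul (by simp [ha]) (by simp [hb]), rep_mul_apply, hx, map_smul,
          smul_add, ← LinearMap.IsAlt.neg hA b a]
        congr 2
        simp only [map_smul, LinearMap.smul_apply, smul_eq_mul]
        field_simp
      rw [LinearMap.mem_eqLocus, Module.End.mul_apply,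
        h.opZ_eq_spU hψ h2 hκ h1 hy (opZ_mem κ hx h3), h.opZ_eq_spU hψ h2 hκ h3 hy hx]
      simp only [LinearMap.add_apply, LinearMap.smul_apply, map_add,
        h.opZ_eq_spU hψ h2 hκ (w := v + w) (by simp [h1, h3]) hy hx,
        h.opZ_eq_spU hψ h2 hκ (w := v - w) (by simp [h1, h3]) hy hx]
      rw [hm _ _ h1 h3, hm _ _ h1 (by simp [h3]), hm _ _ (by simp [h1]) h3,
        hm _ _ (by simp [h1]) (by simp [h3])]
      simp only [map_neg, LinearMap.neg_apply, neg_neg, ← sub_eq_add_neg, neg_add_rev, neg_sub,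
        neg_add_eq_sub, show -v - w = -w - v by abel]
      module
    obtain ⟨u, u', e, a1, a2, b1, b2⟩ := exists_hyp_perp hB hA h4 hvw
    exact h.eq_top hB hψ hG e (key u a1 a2) (key u' b1 b2)

end RankOne

namespace Heis

variable {L : Type*} [Fintype W] [AddCommGroup L] [Module ℂ L] [FiniteDimensional ℂ L]
  {T : W → Module.End ℂ L}

/-- Weight spaces of a line of Heisenberg operators. -/
noncomputable def twt (_ : Heis B ψ T) (v : W) (y : F) : Submodule ℂ L :=
  wsp (fun s : F => T (s • v)) fun s => ψ (s * (2 * y))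

omit [Fintype F] [FiniteDimensional ℂ L] in
theorem twt_apply (h : Heis B ψ T) {v : W} {y : F} {x : L} (hx : x ∈ h.twt v y) (s : F) :
    T (s • v) x = ψ (s * (2 * y)) • x := hx s

omit [Fintype F] [FiniteDimensional ℂ L] in
theorem T_smul_add (h : Heis B ψ T) (v : W) (s t : F) : T ((s + t) • v) = T (s • v) * T (t • v) := by
  simp [h.mul, h.alt.self_eq_zero, add_smul]

theorem twt_ext (h : Heis B ψ T) (v : W) {V' : Type*} [AddCommGroup V'] [Module ℂ V']
    {R R' : L →ₗ[ℂ] V'} (hR : ∀ y x, x ∈ h.twt v y → R x = R' x) : R = R' := by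
  have hp : ∀ (s : F) (k : ℕ), T (s • v) ^ k = T (((k : F) * s) • v) := fun s k => by
    induction k with
    | zero => simp [h.zero]
    | succ k ih => rw [pow_succ, ih, ← h.T_smul_add, Nat.cast_succ, add_mul, one_mul]
  refine ext_of_wsp (fun s : F => T (s • v)) (fun s t x => by
    rw [← Module.End.mul_apply, ← h.T_smul_add, add_comm, h.T_smul_add, Module.End.mul_apply])
    (ringChar_ne_zero_C F) (fun s => by rw [hp, CharP.cast_eq_zero, zero_mul, zero_smul, h.zero])
    fun l x h0 hl => ?_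
  obtain ⟨z, hz⟩ := exists_mul_of_map_add ψ h.ne_one l
    (eq_of_smul_eq h0 (by rw [← hl]; simp [h.zero]))
    fun c d => eq_of_smul_eq h0 (by
      have hl' : ∀ s, T (s • v) x = l s • x := hl
      rw [← hl', h.T_smul_add, Module.End.mul_apply, hl', map_smul, hl', smul_smul, mul_comm])
  exact hR (z / 2) x fun s => (hl s).trans (by rw [hz, mul_div_cancel₀ _ h.two])

omit [Fintype F] [FiniteDimensional ℂ L] in
theorem twt_T (h : Heis B ψ T) {v : W} {y : F} {x : L} (hx : x ∈ h.twt v y) (w : W) :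
    T w x ∈ h.twt v (y + B v w) := fun s => by
  dsimp only
  rw [← Module.End.mul_apply, h.comm, LinearMap.smul_apply, Module.End.mul_apply, h.twt_apply hx,
    (T w).map_smul, smul_smul, ← AddChar.map_add_eq_mul]
  congr 2
  simp only [map_smul, LinearMap.smul_apply, smul_eq_mul]; ring

omit [Fintype F] [FiniteDimensional ℂ L] in
theorem twt_par (h : Heis B ψ T) {v : W} {y : F} {x : L} (hx : x ∈ h.twt v y) :
    h.par x ∈ h.twt v (-y) := fun s => by
  dsimp only
  rw [← Module.End.mul_apply, ← neg_neg (s • v), ← h.par_T, Module.End.mul_apply, ← neg_smul,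
    h.twt_apply hx, map_smul]
  congr 2; ring

/-- Gaussian operators. -/
noncomputable def gau (_ : Heis B ψ T) (b : F → ℂ) (v : W) : Module.End ℂ L :=
  ∑ s, b s • (T (s • v) + T (-(s • v)))

omit [FiniteDimensional ℂ L] in
theorem gau_apply (h : Heis B ψ T) (b : F → ℂ) {v : W} {y : F} {x : L} (hx : x ∈ h.twt v y) :
    h.gau b v x = (∑ s, b s * (ψ (s * (2 * y)) + ψ (-(s * (2 * y))))) • x := by
  rw [gau, LinearMap.sum_apply, Finset.sum_smul]
  refine Finset.sum_congr rfl fun s _ => ?_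
  rw [LinearMap.smul_apply, LinearMap.add_apply, ← neg_smul, h.twt_apply hx, h.twt_apply hx,
    ← add_smul, smul_smul, neg_mul]

theorem weil_gau (h : Heis B ψ T) (g : SpG B) (b : F → ℂ) (v : W) :
    h.weil g * h.gau b v = h.gau b (g.1 v) * h.weil g := by
  simp only [gau, Finset.mul_sum, Finset.sum_mul, mul_smul_comm, smul_mul_assoc, mul_add, add_mul,
    h.weil_T, map_neg, map_smul]

theorem exists_fixed (h : Heis B ψ T) {v w : W} (hvw : B v w = 0)
    (hli : LinearIndependent F ![v, w]) : ∃ x, x ≠ 0 ∧ ∀ a b : F, T (a • v + b • w) x = x := by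
  classical
  have h1 : ∑ p : F × F, T (p.1 • v + p.2 • w) ≠ 0 := fun e => by
    have := congrArg (LinearMap.trace ℂ L) e
    rw [map_sum, Finset.sum_eq_single 0 (fun p _ hp => h.trace_T fun e => hp ?_) (by simp)] at this
    · simp [h.zero, h.finrank_pos.ne'] at this
    · exact Prod.ext ((LinearIndependent.pair_iff.1 hli _ _ e).1)
        ((LinearIndependent.pair_iff.1 hli _ _ e).2)
  obtain ⟨x, hx⟩ := DFunLike.ne_iff.1 h1
  refine ⟨_, hx, fun a b => ?_⟩
  rw [← Module.End.mul_apply, Finset.mul_sum]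
  congr 1
  refine Fintype.sum_equiv (Equiv.addLeft (a, b)) _ _ fun p => ?_
  simp only [h.mul, map_add, map_smul, LinearMap.add_apply, LinearMap.smul_apply, hvw,
    h.alt.self_eq_zero, h.alt.isRefl _ _ hvw, smul_zero, add_zero, AddChar.map_zero_eq_one,
    one_smul, Equiv.coe_addLeft, Prod.fst_add, Prod.snd_add]
  congr 1; module

theorem exists_perp_li (h : Heis B ψ T) (h4 : 4 ≤ finrank F W) {v : W} (hv : v ≠ 0) :
    ∃ w, B v w = 0 ∧ LinearIndependent F ![v, w] := by
  have : FiniteDimensional F W := Module.Finite.of_finite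
  have h1 := (isWittPair_alt B h.nondeg h.alt).finrank_perp (F ∙ v)
  rw [finrank_span_singleton hv] at h1
  obtain ⟨w, hw, hw'⟩ := SetLike.not_le_iff_exists.1 fun e : perp B (F ∙ v) ≤ F ∙ v => by
    have := Submodule.finrank_mono e
    rw [finrank_span_singleton hv] at this
    omega
  refine ⟨w, mem_perp_singleton.1 hw, (LinearIndependent.pair_iff' hv).2 fun a e => hw' ?_⟩
  exact e ▸ Submodule.smul_mem _ _ (Submodule.mem_span_singleton_self v)

theorem weil_spTrans_eq (h : Heis B ψ T) (h4 : 4 ≤ finrank F W) {b : F → F → ℂ} (hb : ∀ c y,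
    ∑ s, b c s * (ψ (s * (2 * y)) + ψ (-(s * (2 * y)))) = ψ (c * (-1 * y ^ 2))) (v : W) (c : F) :
    h.weil (spTrans h.alt v c) = h.gau (b c) v := by
  have : FiniteDimensional F W := Module.Finite.of_finite
  have h1 : ∀ v c, ∃ μ : ℂ, h.gau (b c) v = μ • h.weil (spTrans h.alt v c) := fun v c =>
    h.eq_smul (A := h.weilU (spTrans h.alt v c)) (h.weil_T _) fun w => h.twt_ext v fun y x hx => by
      have e : T (w + (c * B w v) • v) = ψ (-(c * B w v * B w v)) • (T w * T ((c * B w v) • v)) := by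
        rw [h.mul, smul_smul, ← AddChar.map_add_eq_mul]; simp
      rw [Module.End.mul_apply, Module.End.mul_apply, h.gau_apply _ (h.twt_T hx w), h.gau_apply _ hx,
        hb, hb, map_smul, spTrans_apply, e, LinearMap.smul_apply, Module.End.mul_apply,
        h.twt_apply hx, (T w).map_smul, smul_smul, smul_smul, ← AddChar.map_add_eq_mul, ← AddChar.map_add_eq_mul,
        ← LinearMap.IsAlt.neg h.alt w v]
      congr 2; ring
  choose μ hμ using h1
  by_cases hv : v = 0
  · subst hv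
    refine h.twt_ext 0 fun y x hx => ?_
    have : x ∈ h.twt 0 0 := fun s => by simp [h.zero]
    have e : spTrans h.alt (0 : W) c = 1 := spG_ext fun u => by simp [spTrans_apply]
    rw [h.gau_apply _ this, hb, e]; simp
  obtain ⟨w, hvw, hli⟩ := h.exists_perp_li h4 hv
  obtain ⟨x, hx0, hx⟩ := h.exists_fixed hvw hli
  have h2 : ∀ u, u ≠ 0 → ∀ c, μ u c = μ v c := fun u hu c => by
    obtain ⟨g, hg, e⟩ := (isWittPair_alt B h.nondeg h.alt).exists_isom_vec hv hu rfl
    have := h.weil_gau ⟨g, hg⟩ (b c) v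
    rw [hμ, hμ, mul_smul_comm, smul_mul_assoc, ← map_mul, ← map_mul, ← conj_spTrans,
      inv_mul_cancel_right, e] at this
    have hL : Nontrivial L := ⟨x, 0, hx0⟩
    exact (smul_left_injective ℂ (h.weilU _).ne_zero this).symm
  have h3 : ∀ (a a' : F), (a ≠ 0 ∨ a' ≠ 0) → ∀ c,
      h.weil (spTrans h.alt (a • v + a' • w) c) x = (μ v c)⁻¹ • x ∧ μ v c ≠ 0 := by
    intro a a' ha c
    have : x ∈ h.twt (a • v + a' • w) 0 := fun s => by
      simp only [smul_add, smul_smul, hx]; simp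
    have e := h.gau_apply (b c) this
    rw [hb, hμ, h2 _ fun e => by
      have := LinearIndependent.pair_iff.1 hli _ _ e
      tauto] at e
    simp only [LinearMap.smul_apply, ne_eq, OfNat.ofNat_ne_zero, not_false_eq_true, zero_pow,
      mul_zero, AddChar.map_zero_eq_one, one_smul] at e
    have h0 : μ v c ≠ 0 := fun e' => hx0 (by rw [← e, e', zero_smul])
    exact ⟨by rw [eq_inv_smul_iff₀ h0, e], h0⟩
  have h5 : ∀ c, (μ v (2 * c))⁻¹ = (μ v c)⁻¹ * (μ v c)⁻¹ := fun c => eq_of_smul_eq hx0 (by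
    rw [← (h3 1 0 (by simp) _).1, two_mul, spTrans_add,
      wt_mul h.weil (h3 1 0 (by simp) c).1 (h3 1 0 (by simp) c).1])
  have h6 : ∀ c, (μ v c)⁻¹ * (μ v c)⁻¹ = (μ v (2 * c))⁻¹ * (μ v (2 * c))⁻¹ := fun c =>
    eq_of_smul_eq hx0 (by
      rw [← wt_mul h.weil (h3 1 1 (by simp) c).1 (h3 1 (-1) (by simp) c).1,
        ← wt_mul h.weil (h3 1 0 (by simp) _).1 (h3 0 1 (by simp) _).1]
      congr 2
      refine spG_ext fun u => ?_
      simp only [spG_mul_apply, spTrans_apply, map_add, map_smul, LinearMap.add_apply,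
        LinearMap.smul_apply, hvw, h.alt.self_eq_zero, h.alt.isRefl _ _ hvw, smul_eq_mul]
      module)
  have h7 : μ v c = 1 := by
    have e := h6 (c / 2)
    rw [← h5, mul_div_cancel₀ _ h.two, left_eq_mul₀ (inv_ne_zero (h3 1 0 (by simp) c).2)] at e
    exact inv_eq_one.1 e
  rw [hμ, h7, one_smul]

theorem twt_le_zwt (h : Heis B ψ T) (h4 : 4 ≤ finrank F W) {v : W} {y : F} {x : L}
    (hx : x ∈ h.twt v y) : x ∈ zwt h.alt h.weil ψ v (-1 * y ^ 2) := fun c => by
  obtain ⟨b, hb⟩ := exists_gauss h.ne_one h.two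
  dsimp only
  rw [h.weil_spTrans_eq h4 hb, h.gau_apply _ hx, hb]

theorem exists_eq_neg_sq (h : Heis B ψ T) (h4 : 4 ≤ finrank F W) {v : W} {z : F} {x : L}
    (h0 : x ≠ 0) (hx : x ∈ zwt h.alt h.weil ψ v z) : ∃ y, z = -1 * y ^ 2 := by
  obtain ⟨κ, hκ⟩ := exists_zproj (hA := h.alt) (ρ := h.weil) h.ne_one z
  by_contra! hc
  have : opZ h.alt h.weil κ v = 0 :=
    h.twt_ext v fun y x hx => (hκ v _ x (h.twt_le_zwt h4 hx)).2 (hc y).symm
  exact h0 (by rw [← (hκ v z x hx).1 rfl, this]; rfl)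

theorem exists_mem_part (h : Heis B ψ T) (h4 : 4 ≤ finrank F W) {v : W} (hv : v ≠ 0) {ε : ℂ}
    (hε : ε * ε = 1) : ∃ x ∈ h.part ε, x ≠ 0 ∧ x ∈ zwt h.alt h.weil ψ v (-1) := by
  obtain ⟨w, hvw, hli⟩ := h.exists_perp_li h4 hv
  obtain ⟨x, hx0, hx⟩ := h.exists_fixed hvw hli
  obtain ⟨u, hu⟩ := h.exists_psi hv (-1)
  have h1 : x ∈ h.twt v 0 := fun s => by simpa using hx s 0
  have h2 := h.twt_T h1 u
  rw [← LinearMap.IsAlt.neg h.alt u v, hu, neg_neg, zero_add] at h2
  have h3 := h.twt_par h2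
  have h5 : T u x ≠ 0 := fun e => hx0 (by
    have := DFunLike.congr_fun (h.mul_neg (-u)) x
    rwa [neg_neg, Module.End.mul_apply, e, map_zero, eq_comm] at this)
  refine ⟨_, h.add_par_mem hε (T u x), fun e => ?_, Submodule.add_mem _ ?_
    (Submodule.smul_mem _ _ ?_)⟩
  · have h6 : T u x ∈ h.twt v (-1) := by
      rw [eq_neg_of_add_eq_zero_left e]
      exact Submodule.neg_mem _ (Submodule.smul_mem _ _ h3)
    have := eq_of_psi_mul ψ h.ne_one fun s => eq_of_smul_eq h5 ((h2 s).symm.trans (h6 s))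
    exact mul_ne_zero h.two h.two (by linear_combination this)
  · simpa using h.twt_le_zwt h4 h2
  · simpa using h.twt_le_zwt h4 h3

theorem char_eq (h : Heis B ψ T) (h4 : 4 ≤ finrank F W) (ρ : Representation ℂ (SpG B) V)
    [hirr : ρ.IsIrreducible] (h1 : RankOne h.alt ρ ψ) (hG : ∀ x, (∀ g, ρ g x = x) → x = 0)
    (ht : ∀ w z x, x ≠ 0 → x ∈ zwt h.alt ρ ψ w z → ∃ y, z = -1 * y ^ 2) :
    ρ.character = (h.weilP 1).toRepresentation.character ∨
      ρ.character = (h.weilP (-1)).toRepresentation.character := by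
  have : FiniteDimensional F W := Module.Finite.of_finite
  have : Finite (SpG B) := Finite.of_injective (fun g : SpG B => (g.1 : W → W))
    fun a b e => spG_ext (congrFun e)
  have := Fintype.ofFinite (SpG B)
  obtain ⟨κ, hκ⟩ := exists_cos h.ne_one
  obtain ⟨b, hb⟩ := exists_gauss h.ne_one h.two
  let Φ : Module.End ℂ L →ₗ[ℂ] Module.End ℂ V :=
    h.basis.constr ℂ fun v => (2 : ℂ)⁻¹ • opZ h.alt ρ κ v
  have hΦ : ∀ v, Φ (T v + T (-v)) = opZ h.alt ρ κ v := fun v => by
    have e : opZ h.alt ρ κ (-v) = opZ h.alt ρ κ v := by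
      simp only [opZ, ← neg_one_smul F v, spTrans_smul]; simp
    rw [map_add, ← h.basis_apply, ← h.basis_apply, Basis.constr_basis, Basis.constr_basis, e]
    module
  let Ev : Submodule ℂ (Module.End ℂ L) := Submodule.span ℂ (Set.range fun v => T v + T (-v))
  have hmul : ∀ a ∈ Ev, ∀ a' ∈ Ev, a * a' ∈ Ev ∧ Φ (a * a') = Φ a * Φ a' := by
    intro a ha a' ha'
    induction ha, ha' using Submodule.span_induction₂ with
    | mem_mem x y hx hy =>
      obtain ⟨v, rfl⟩ := hx
      obtain ⟨w, rfl⟩ := hy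
      have e : (T v + T (-v)) * (T w + T (-w)) = ψ (B v w) • (T (v + w) + T (-(v + w))) +
          ψ (-B v w) • (T (v - w) + T (-(v - w))) := by
        simp only [mul_add, add_mul, h.mul, map_neg, LinearMap.neg_apply, neg_neg, ← sub_eq_add_neg,
          neg_add_rev, neg_sub, neg_add_eq_sub, show -v - w = -w - v by abel]
        module
      rw [e, map_add, map_smul, map_smul, hΦ, hΦ, hΦ, hΦ,
        h1.opZ_mul h.nondeg h.ne_one h.two h4 hG ht hκ]
      exact ⟨Ev.add_mem (Ev.smul_mem _ (Submodule.subset_span ⟨_, rfl⟩))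
        (Ev.smul_mem _ (Submodule.subset_span ⟨_, rfl⟩)), rfl⟩
    | zero_left => simp
    | zero_right => simp
    | add_left x y z _ _ _ h1 h2 =>
      rw [add_mul, map_add, map_add, add_mul, h1.2, h2.2]; exact ⟨Ev.add_mem h1.1 h2.1, rfl⟩
    | add_right x y z _ _ _ h1 h2 =>
      rw [mul_add, map_add, map_add, mul_add, h1.2, h2.2]; exact ⟨Ev.add_mem h1.1 h2.1, rfl⟩
    | smul_left r x y _ _ h1 =>
      rw [smul_mul_assoc, map_smul, map_smul, smul_mul_assoc, h1.2]; exact ⟨Ev.smul_mem _ h1.1, rfl⟩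
    | smul_right r x y _ _ h1 =>
      rw [mul_smul_comm, map_smul, map_smul, mul_smul_comm, h1.2]; exact ⟨Ev.smul_mem _ h1.1, rfl⟩
  have htr : ∀ v c, h.weil (spTrans h.alt v c) ∈ Ev ∧
      Φ (h.weil (spTrans h.alt v c)) = ρ (spTrans h.alt v c) := fun v c => by
    rw [h.weil_spTrans_eq h4 hb, gau]
    refine ⟨Ev.sum_mem fun s _ => Ev.smul_mem _ (Submodule.subset_span ⟨_, rfl⟩), ?_⟩
    rw [← LinearMap.eqLocus_eq_top, eq_top_iff]
    refine zwt_ind (hA := h.alt) (ρ := ρ) h.ne_one v ⊤ (fun _ _ _ => trivial) fun z x _ h0 hx => ?_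
    obtain ⟨y, rfl⟩ := ht _ _ _ h0 hx
    have hx' : ρ (spTrans h.alt v c) x = ψ (c * (-1 * y ^ 2)) • x := hx c
    rw [LinearMap.mem_eqLocus, hx', map_sum, LinearMap.sum_apply, ← hb, Finset.sum_smul]
    refine Finset.sum_congr rfl fun s _ => ?_
    have := zwt_smul hx s
    rw [show s ^ 2 * (-1 * y ^ 2) = -1 * (s * y) ^ 2 by ring] at this
    rw [map_smul, hΦ, LinearMap.smul_apply, opZ_apply κ this, hκ, smul_smul, mul_left_comm]
  have hall : ∀ g, h.weil g ∈ Ev ∧ Φ (h.weil g) = ρ g := fun g => by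
    have hg : g ∈ Subgroup.closure {g : SpG B | ∃ v c, g = spTrans h.alt v c} := by
      rw [closure_spTrans h.nondeg h.alt]; trivial
    induction hg using Subgroup.closure_induction'' with
    | mem g hg => obtain ⟨v, c, rfl⟩ := hg; exact htr v c
    | inv_mem g hg =>
      obtain ⟨v, c, rfl⟩ := hg
      rw [inv_eq_of_mul_eq_one_right (by rw [← spTrans_add, add_neg_cancel, spTrans_zero])]
      exact htr v (-c)
    | one => rw [← spTrans_zero h.alt 0]; exact htr 0 0
    | mul a b _ _ ha hb =>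
      rw [map_mul h.weil, map_mul ρ, ← ha.2, ← hb.2]; exact hmul _ ha.1 _ hb.1
  by_contra! hc
  have hχ := CF.Char.isIrrCharacter_character ρ
  have hf : Cfsg.IsClassFunction (SpG B) fun g => (starRingEnd ℂ) (ρ.character g) :=
    CF.Char.irr_isClassFunction (CF.Char.irr_conj hχ)
  have hsum : ∀ χ : SpG B → ℂ, ∑ g, (starRingEnd ℂ) (ρ.character g) * χ g =
      Nat.card (SpG B) * Cfsg.classInner χ ρ.character := fun χ => by
    rw [Cfsg.classInner, mul_inv_cancel_left₀ (Nat.cast_ne_zero.2 Nat.card_pos.ne')]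
    exact Finset.sum_congr rfl fun g _ => mul_comm _ _
  have hz : ∀ ε : ℂ, ρ.character ≠ (h.weilP ε).toRepresentation.character →
      ∀ x ∈ h.part ε, (∑ g, (starRingEnd ℂ) (ρ.character g) • h.weil g) x = 0 := by
    intro ε hne x hx
    by_cases h0 : h.part ε = ⊥
    · rw [h0] at hx; rw [(Submodule.mem_bot ℂ).1 hx, map_zero]
    have := h.irr_weilP h0
    have e := CF.Char.sum_classFun_smul_eq (h.weilP ε).toRepresentation hf
    rw [hsum, CF.Char.inner_irr_ne (CF.Char.isIrrCharacter_character _) hχ hne.symm] at e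
    have e2 := congrArg Subtype.val (DFunLike.congr_fun e ⟨x, hx⟩)
    simp only [mul_zero, zero_div, zero_smul, LinearMap.zero_apply, ZeroMemClass.coe_zero,
      LinearMap.sum_apply, LinearMap.smul_apply, Submodule.coe_sum, Submodule.coe_smul] at e2 ⊢
    exact e2
  have h0 : ∑ g, (starRingEnd ℂ) (ρ.character g) • h.weil g = 0 := LinearMap.ext fun x => by
    have e1 := hz 1 hc.1 _ (h.add_par_mem (by simp) x)
    have e2 := hz (-1) hc.2 _ (h.add_par_mem (by simp) x)
    rw [map_add, map_smul] at e1 e2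
    rw [LinearMap.zero_apply]
    linear_combination (norm := module) (2 : ℂ)⁻¹ • e1 + (2 : ℂ)⁻¹ • e2
  have e := CF.Char.sum_classFun_smul_eq ρ hf
  rw [hsum, CF.Char.inner_irr_self hχ] at e
  have e2 := congrArg Φ h0
  simp only [map_sum, map_smul, (hall _).2, map_zero] at e2
  have := CF.Char.nontrivial_of_isIrreducible ρ
  rw [e2, eq_comm, smul_eq_zero] at e
  rcases e with e | e
  · exact div_ne_zero (by simp) (CF.Char.irr_one_ne_zero hχ) e
  · exact one_ne_zero (α := Module.End ℂ V) e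

end Heis

end CF.Classical
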